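import Cfsg.Agent.H513.AbHNA

/-!
# Row HN of S2501: `|A| ^ 3 < |HN|` for the abelian subgroups `A` (helper513)
-/

set_option autoImplicit false
set_option maxRecDepth 100000
set_option linter.unusedSectionVars false

namespace Cfsg.Agent.H513.AbHN

open Subgroup
open Cfsg.Agent.HN.Pres Cfsg.Agent.HN.H0Basic
open Cfsg.Agent.HN.P1408 hiding ψ
open Cfsg.Agent.HN.XWords (W0 W0_sq)
open Cfsg.Agent.HN.NormalH (ψ)
open Cfsg Cfsg.Agent
open Cfsg.Agent.KFacts.HN
open Cfsg.Agent.CpAutHNFive.TFive Cfsg.Agent.CpAutHNFive.HTab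
open Cfsg.Agent.H498.Ab
open Cfsg.Agent.H513.NilpTools Cfsg.Agent.H513.CentTools Cfsg.Agent.H513.AbTools Cfsg.Agent.H513.PairBound
open Cfsg.Agent.H513.NilpHN (card_G)
open Cfsg.Agent.H513.HNH0 Cfsg.Agent.H513.HNTau Cfsg.Agent.H513.HNSeven Cfsg.Agent.H513.HNZ Cfsg.Agent.H513.AbHNA

local notation "NH" => 273030912000000

/-! ### centralizers of elements of prime order -/

theorem not_seven {x : G} {r : ℕ} (hx : orderOf x = r) (hr : ¬ r ∣ 420) :
    ¬ 7 ∣ Nat.card ↥(centralizer ({x} : Set G)) := by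
  intro h
  obtain ⟨w, hw, hwx⟩ := exists_of_dvd_cent (by norm_num) h
  exact hr ((dvd_cent hx hwx).trans (cent_seven hw))

theorem cap_five {x : G} {r : ℕ} (hr : r.Prime) (hx : orderOf x = r) (h1 : ¬ r ∣ 3686400)
    (h2 : ¬ r * r ∣ NH) : ¬ 5 ^ 4 ∣ Nat.card ↥(centralizer ({x} : Set G)) := by
  have h5F : Fact (Nat.Prime 5) := ⟨Nat.prime_five⟩
  obtain ⟨z, -, hz, -, hbig, -⟩ := exists_z'
  exact not_dvd_cent hbig hx (hz r hr h1 h2)

/-! ### 11 -/

theorem chkH : chkN 1 177408000 11 [(2, 1)] (fun m e => !(Nat.beq m 2) || Nat.beq e 10) = true := by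
  decide +kernel

theorem norm_w11 : Nat.card ↥(NN (hw w11)) = 220 := by
  have := finite_H0
  obtain ⟨m, e, h1, h2, -, h3⟩ := chk_norm' (x := hw w11) (r := 11) (by norm_num) order_w11
    Cfsg.Agent.HN.H0Basic.card_H0 (by norm_num) [(2, 1)] (by norm_num)
    ((dvd_of_eq card_eleven).trans (dvd_of_eq (by norm_num [prodL]))) chkH
  rw [card_eleven] at h1
  have hm : m = 2 := by omega
  subst hm
  have h4 : e = 10 := by
    rw [Bool.or_eq_true] at h3
    exact Nat.eq_of_beq_eq_true (h3.resolve_left (by decide))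
  rw [h2, h4]

theorem chk11 : chkN 2 NH 11 [(2, 1), (3, 6), (5, 3), (19, 1)] (fun m e =>
    !(Nat.beq (m * e % 20) 0 && Nat.beq (e % 5) 0) || (Nat.beq (m % 729) 0 ||
    (Nat.ble m 4050 && !(Nat.beq (m % 19) 0)))) = true := by decide +kernel

theorem dat11 {y : G} (hy : orderOf y = 11) : ∃ m, Nat.card ↥(centralizer ({y} : Set G)) = 11 * m ∧
    m ≤ 4050 ∧ ¬ 19 ∣ m := by
  have hs := simple
  have hF := finite_H0
  have hc0 : Nat.card ↥(centralizer ({y} : Set G)) = Nat.card ↥(centralizer ({ψ (hw w11)} : Set G)) :=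
    card_cent_eq (by norm_num) hy (order_ψ order_w11) (by rw [card_G]; norm_num)
  rw [hc0]
  set x := ψ (hw w11) with hx
  have hxo : orderOf x = 11 := order_ψ order_w11
  have hty := ψτ_comm (hw w11)
  have hc : Nat.card ↥(centralizer ({x} : Set G) ⊓ centralizer ({ψ τ} : Set G) : Subgroup G) ∣ 2 * 11 :=
    dvd_of_eq (inf_eleven hxo order_ψτ hty)
  have hcard : Nat.card ↥(centralizer ({x} : Set G)) ∣ 11 * prodL [(2, 1), (3, 6), (5, 3), (19, 1)] := by
    have h6 := card_subgroup_dvd_card (centralizer ({x} : Set G))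
    rw [card_G, show (NH : ℕ) = 2 ^ 14 * (7 ^ 1 * (5 ^ 6 * (3 ^ 6 * 11 * 19))) by norm_num] at h6
    have h7 := dvd_cap (k := 1) Nat.prime_two
      (AbCr.not_four (by norm_num) (by norm_num) hxo order_ψτ hty hc) h6
    rw [show (2 ^ 1 * (7 ^ 1 * (5 ^ 6 * (3 ^ 6 * 11 * 19))) : ℕ) = 7 ^ 1 * (5 ^ 6 * (2 * 3 ^ 6 * 11 * 19)) by
      norm_num] at h7
    have h8 := dvd_drop (by norm_num) (not_seven hxo (by norm_num)) h7
    exact (dvd_cap Nat.prime_five (cap_five (by norm_num) hxo (by norm_num) (by norm_num)) h8).trans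
      (dvd_of_eq (by norm_num [prodL]))
  obtain ⟨m, e, h1, h2, -, h3⟩ := chk_norm (x := x) (by norm_num) hxo card_G (by norm_num) (by norm_num)
    [(2, 1), (3, 6), (5, 3), (19, 1)] (by norm_num) hcard chk11
  refine ⟨m, h1, ?_⟩
  -- the normalizer in `H0`
  have h4 : 220 ∣ 11 * m * e := by
    rw [← h2, ← norm_w11, ← card_map_of_injective (K := NN (hw w11)) emb.inj]
    exact card_dvd_of_le (NN_map_hom ψ (hw w11))
  have h5 : 20 ∣ m * e := by
    rw [mul_assoc, show (220 : ℕ) = 11 * 20 by norm_num] at h4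
    exact Nat.dvd_of_mul_dvd_mul_left (by norm_num) h4
  have h6 : 5 ∣ e := by
    have h5F : Fact (Nat.Prime 5) := ⟨Nat.prime_five⟩
    obtain ⟨g, hg⟩ := exists_prime_orderOf_dvd_card' (G := ↥(NN (hw w11))) 5 (by rw [norm_w11]; norm_num)
    have hg' : orderOf (g : H0) = 5 := by rw [Subgroup.orderOf_coe, hg]
    have h7 := dvd_norm (w := x) (g := ψ g) Nat.prime_five (order_ψ hg') (NN_map_hom ψ (hw w11) ⟨g, g.2, rfl⟩) (by
      intro h
      rw [hx, ← map_mul, ← map_mul] at h
      have h8 := emb.inj h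
      have h9 := dvd_cent hg' h8.symm
      rw [card_eleven] at h9
      norm_num at h9)
    rw [h2, h1] at h7
    have hm0 : 0 < 11 * m := by
      rw [← h1]
      exact Nat.card_pos
    exact Nat.dvd_of_mul_dvd_mul_left hm0 h7
  rw [Nat.mod_eq_zero_of_dvd h5, Nat.mod_eq_zero_of_dvd h6, Bool.or_eq_true] at h3
  have h7 := h3.resolve_left (by decide)
  rw [Bool.or_eq_true, Bool.and_eq_true] at h7
  rcases h7 with h7 | ⟨h7, h8⟩
  · exfalso
    obtain ⟨Q, hQ, a, ha, b, hb, hab⟩ := HNThree.sylow_three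
    apply hab
    refine AbCr.comm_of_full (q := 3) (n := 6) (by norm_num) (by norm_num) hxo order_ψτ hty hc (by norm_num)
      (by norm_num) (by norm_num) (by rw [card_G]; norm_num) ?_ Q hQ a ha b hb
    rw [h1]
    exact Dvd.dvd.mul_left (Nat.dvd_of_mod_eq_zero (Nat.eq_of_beq_eq_true h7)) _
  · refine ⟨Nat.le_of_ble_eq_true h7, fun h9 => ?_⟩
    rw [Nat.mod_eq_zero_of_dvd h9] at h8
    exact absurd h8 (by decide)

/-! ### subgroups of order divisible by 25 of the centralizers of the involutions -/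

theorem mem_wz {B : Subgroup H0} (hB : 25 ∣ Nat.card ↥B) : ∃ g : H0, g * hw wz * g⁻¹ ∈ B := by
  have hF := finite_H0
  have h5F : Fact (Nat.Prime 5) := ⟨Nat.prime_five⟩
  have hcard := card_closure c5 d5 z5 z1 cz dz cd
  have hfac : (Nat.card H0).factorization 5 = 3 := by
    rw [Cfsg.Agent.HN.H0Basic.card_H0, show (177408000 : ℕ) = 5 ^ 3 * 1419264 by norm_num]
    have h2 : (1419264 : ℕ).factorization 5 = 0 := Nat.factorization_eq_zero_of_not_dvd (by norm_num)
    rw [Nat.factorization_mul (by norm_num) (by norm_num), Nat.Prime.factorization_pow Nat.prime_five,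
      Finsupp.add_apply, h2, Finsupp.single_eq_same]
  let P : Sylow 5 H0 := Sylow.ofCard (closure ({hw wc, hw wd} : Set H0)) (by rw [hfac]; exact hcard)
  have hP : (P : Subgroup H0) = closure ({hw wc, hw wd} : Set H0) := rfl
  obtain ⟨P0⟩ : Nonempty (Sylow 5 ↥B) := inferInstance
  have h1 : 5 ^ 2 ∣ Nat.card ↥(P0 : Subgroup ↥B) := P0.pow_dvd_card_of_pow_dvd_card (by norm_num; exact hB)
  set P1 := (P0 : Subgroup ↥B).map B.subtype with hP1
  have h2 : 5 ^ 2 ∣ Nat.card ↥P1 := by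
    rw [hP1, card_map_of_injective B.subtype_injective]
    exact h1
  obtain ⟨Q, hQ⟩ := (P0.isPGroup'.map B.subtype).exists_le_sylow
  obtain ⟨g, hg⟩ := MulAction.exists_smul_eq H0 Q P
  set E := closure ({hw wc, hw wd} : Set H0) with hE
  have h3 : P1.map (MulAut.conj g).toMonoidHom ≤ E := by
    rw [← hP, ← hg, Sylow.coe_subgroup_smul]
    rintro _ ⟨v, hv, rfl⟩
    exact ⟨v, hQ hv, rfl⟩
  have hcE : hw wc ∈ E := subset_closure (by simp)
  have hdE : hw wd ∈ E := subset_closure (by simp)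
  have hzE : hw wz ∈ E := by
    have h : hw wz = (hw wc)⁻¹ * ((hw wd)⁻¹ * (hw wc * hw wd)) := by rw [cd]; group
    rw [h]
    exact mul_mem (inv_mem hcE) (mul_mem (inv_mem hdE) (mul_mem hcE hdE))
  have hEc : E ≤ centralizer ({hw wz} : Set H0) := by
    rw [hE, closure_le]
    rintro _ (rfl | rfl)
    · exact mem_centralizer_singleton_iff.2 cz
    · exact mem_centralizer_singleton_iff.2 dz
  have h4 := mem_of_sq_dvd (G := ↥E) (p := 5) Nat.prime_five hcard (z := ⟨hw wz, hzE⟩)
    (mem_center_iff.2 fun v => Subtype.ext (mem_centralizer_singleton_iff.1 (hEc v.2)))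
    (by rw [Subgroup.orderOf_mk]; exact orderOf_eq_prime z5 z1)
    ⟨⟨hw wc, hcE⟩, ⟨hw wd, hdE⟩, fun h => by
      have h5 : hw wc * hw wd = hw wd * hw wc := congrArg Subtype.val h
      rw [cd, ← mul_assoc] at h5
      exact z1 (mul_eq_left.1 h5)⟩
    (B := (P1.map (MulAut.conj g).toMonoidHom).subgroupOf E) (by
      rw [Nat.card_congr (Subgroup.subgroupOfEquivOfLe h3).toEquiv, card_map_of_injective (MulAut.conj g).injective]
      exact h2)
  obtain ⟨v, ⟨b, -, hb⟩, hv⟩ := mem_subgroupOf.1 h4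
  have hv' : g * v * g⁻¹ = hw wz := hv
  refine ⟨g⁻¹, ?_⟩
  have h5 : g⁻¹ * hw wz * g⁻¹⁻¹ = v := by rw [← hv']; group
  rw [h5, ← hb]
  exact b.2

/-- **`25 ∤ |C(x) ∩ C(t)|`** -/
theorem not_25 {x t : G} {r : ℕ} (hr : r.Prime) (hx : orderOf x = r) (hr1 : ¬ r ∣ 3686400) (hr2 : ¬ r * r ∣ NH)
    (ht : orderOf t = 2) :
    ¬ 25 ∣ Nat.card ↥(centralizer ({x} : Set G) ⊓ centralizer ({t} : Set G) : Subgroup G) := by
  intro h25
  obtain ⟨z, hoz, hz, -, -, ⟨g0, n, hn1, hn5, hg0⟩, hzW⟩ := exists_z'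
  have hrz := hz r hr hr1 hr2
  have hzc : Nat.card ↥(centralizer ({z} : Set G)) = Nat.card ↥(centralizer ({ψ (hw w1)} : Set G)) := by
    rw [← hg0, card_cent_conj, cent_pow_eq Nat.prime_five (order_ψ CpAutHNFive.HFacts.order_w1) hn1 hn5]
  set F := centralizer ({x} : Set G) ⊓ centralizer ({t} : Set G) with hF
  rcases KFacts.HN.Classes.inv_class ht with h | h
  · obtain ⟨c, hc⟩ := isConj_iff.1 h
    have hFr : F.map (MulAut.conj c).toMonoidHom ≤ ψ.range := by
      rintro _ ⟨f, hf, rfl⟩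
      obtain ⟨u, hu⟩ := exists_of_comm hc (mem_centralizer_singleton_iff.1 hf.2)
      exact ⟨u, hu.symm⟩
    set B := (F.map (MulAut.conj c).toMonoidHom).comap ψ with hB
    have hBm : B.map ψ = F.map (MulAut.conj c).toMonoidHom := by
      rw [hB, map_comap_eq, inf_eq_right]
      exact hFr
    have hBc : Nat.card ↥B = Nat.card ↥F := by
      have h1 := congrArg (fun K : Subgroup G => Nat.card ↥K) hBm
      change Nat.card ↥(B.map ψ) = Nat.card ↥(F.map (MulAut.conj c).toMonoidHom) at h1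
      rwa [card_map_of_injective emb.inj, card_map_of_injective (MulAut.conj c).injective] at h1
    obtain ⟨g, f, hf, hfg⟩ := mem_wz (B := B) (by rw [hBc]; exact h25)
    have hfg' : c * f * c⁻¹ = ψ (g * hw wz * g⁻¹) := hfg
    obtain ⟨k, m, hm1, hm5, hk⟩ := exists_conj_wz
    have h1 : f = (c⁻¹ * ψ (g * k)) * ψ (hw w1) ^ m * (c⁻¹ * ψ (g * k))⁻¹ := by
      have h2 : hw wz = k * hw w1 ^ m * k⁻¹ := by rw [← hk]; group
      calc f = c⁻¹ * (c * f * c⁻¹) * c := by group
        _ = c⁻¹ * ψ (g * (k * hw w1 ^ m * k⁻¹) * g⁻¹) * c := by rw [hfg', h2]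
        _ = _ := by
          rw [map_mul, map_mul, map_mul, map_mul, map_pow, map_inv, map_inv, map_mul]
          group
    have h2 := dvd_cent hx (mem_centralizer_singleton_iff.1 hf.1)
    rw [h1, card_cent_conj, cent_pow_eq Nat.prime_five (order_ψ CpAutHNFive.HFacts.order_w1) hm1 hm5, ← hzc] at h2
    exact hrz h2
  · obtain ⟨c, hc⟩ := isConj_iff.1 h
    have hFr : F.map (MulAut.conj c).toMonoidHom ≤ PP := by
      rintro _ ⟨f, hf, rfl⟩
      have h1 : f * t = t * f := mem_centralizer_singleton_iff.1 hf.2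
      rw [mem_PP, ← hc]
      change c * f * c⁻¹ * (c * t * c⁻¹) = c * t * c⁻¹ * (c * f * c⁻¹)
      calc c * f * c⁻¹ * (c * t * c⁻¹) = c * (f * t) * c⁻¹ := by group
        _ = c * t * c⁻¹ * (c * f * c⁻¹) := by rw [h1]; group
    have hfP : Finite ↥PP := Nat.finite_of_card_ne_zero (by rw [card_PP]; norm_num)
    obtain ⟨g, hg⟩ := exists_conj_mem (G := ↥PP) (p := 5) (n := 2) Nat.prime_five (by rw [card_PP]; norm_num)
      (B := (F.map (MulAut.conj c).toMonoidHom).subgroupOf PP) (by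
        rw [Nat.card_congr (Subgroup.subgroupOfEquivOfLe hFr).toEquiv, card_map_of_injective (MulAut.conj c).injective]
        exact h25) (z := ⟨z, mem_PP.2 hzW⟩) (by rw [Subgroup.orderOf_mk]; exact hoz)
    obtain ⟨f, hf, hfg⟩ := mem_subgroupOf.1 hg
    have hfg' : c * f * c⁻¹ = (g : G) * z * (g : G)⁻¹ := hfg
    have h1 : f = (c⁻¹ * (g : G)) * z * (c⁻¹ * (g : G))⁻¹ := by
      calc f = c⁻¹ * (c * f * c⁻¹) * c := by group
        _ = c⁻¹ * ((g : G) * z * (g : G)⁻¹) * c := by rw [hfg']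
        _ = _ := by group
    have h2 := dvd_cent hx (mem_centralizer_singleton_iff.1 hf.1)
    rw [h1, card_cent_conj] at h2
    exact hrz h2

/-! ### 19 -/

theorem card_II : Nat.card (II G) ≤ 75603375 := by
  have h1 := card_invol_two (G := G) (t := ψ τ) (t' := W0) (fun s hs => by
    rcases KFacts.HN.Classes.inv_class hs with h | h
    · exact Or.inl (isConj_iff.1 h.symm)
    · exact Or.inr (isConj_iff.1 h.symm))
  have h2 : (centralizer ({ψ τ} : Set G)).index = 1539000 := by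
    have h3 := Subgroup.card_mul_index (centralizer ({ψ τ} : Set G))
    rw [KFacts.HN.Classes.card_centralizer_τ, card_G] at h3
    omega
  have h3 : (centralizer ({W0} : Set G)).index = 74064375 := by
    have h4 := Subgroup.card_mul_index (centralizer ({W0} : Set G))
    have h5 : Nat.card ↥(centralizer ({W0} : Set G)) = 3686400 := card_PP
    rw [h5, card_G] at h4
    omega
  omega

theorem chk19 : chkN 2 NH 19 [(3, 6), (5, 3)] (fun m e => Nat.ble m 2025 || (Nat.beq m 6075 && Nat.beq e 2)) = true := by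
  decide +kernel

theorem bound19 {x : G} (hx : orderOf x = 19) : Nat.card ↥(centralizer ({x} : Set G)) ≤ 38475 := by
  have hs := simple
  have e2 : ¬ 2 ∣ Nat.card ↥(centralizer ({x} : Set G)) :=
    odd_cent' hx fun t ht => by
      rcases NilpHN.card_inv ht with h | h
      · rw [h]; norm_num
      · rw [h]; norm_num
  have e11 : ¬ 11 ∣ Nat.card ↥(centralizer ({x} : Set G)) := by
    intro h
    obtain ⟨w, hw, hwx⟩ := exists_of_dvd_cent (by norm_num) h
    obtain ⟨m, h1, -, h3⟩ := dat11 hw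
    have h4 := dvd_cent hx hwx
    rw [h1] at h4
    exact h3 ((Nat.Coprime.dvd_of_dvd_mul_left (by norm_num) h4))
  have hcard : Nat.card ↥(centralizer ({x} : Set G)) ∣ 19 * prodL [(3, 6), (5, 3)] := by
    have h6 := card_subgroup_dvd_card (centralizer ({x} : Set G))
    rw [card_G, show (NH : ℕ) = 2 ^ 14 * (7 ^ 1 * (11 ^ 1 * (5 ^ 6 * (3 ^ 6 * 19)))) by norm_num] at h6
    have h8 := dvd_drop (by norm_num) e11 (dvd_drop (by norm_num) (not_seven hx (by norm_num))
      (dvd_drop Nat.prime_two e2 h6))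
    exact (dvd_cap Nat.prime_five (cap_five (by norm_num) hx (by norm_num) (by norm_num)) h8).trans
      (dvd_of_eq (by norm_num [prodL]))
  obtain ⟨m, e, h1, h2, -, h3⟩ := chk_norm (x := x) (by norm_num) hx card_G (by norm_num) (by norm_num)
    [(3, 6), (5, 3)] (by norm_num) hcard chk19
  rw [Bool.or_eq_true, Bool.and_eq_true] at h3
  rcases h3 with h3 | ⟨h3, h4⟩
  · have h4 := Nat.le_of_ble_eq_true h3
    rw [h1]
    omega
  exfalso
  have hm := Nat.eq_of_beq_eq_true h3
  have he := Nat.eq_of_beq_eq_true h4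
  subst hm he
  have h2F : Fact (Nat.Prime 2) := ⟨Nat.prime_two⟩
  obtain ⟨t, ht⟩ := exists_prime_orderOf_dvd_card' (G := ↥(NN x)) 2 (by rw [h2]; norm_num)
  have hto : orderOf (t : G) = 2 := by rw [Subgroup.orderOf_coe, ht]
  have hinv : (t : G) * x * (t : G)⁻¹ = x⁻¹ := by
    refine inv_of_norm (by norm_num) hx hto t.2 fun h => ?_
    exact e2 (dvd_cent hto h.symm)
  have h9 := pair_bound (by norm_num) (by norm_num) hx (by rw [card_G]; norm_num) hto hinv card_II
  have h10 : (NN x).index = 1182720000 := by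
    have h11 := Subgroup.card_mul_index (NN x)
    rw [h2, card_G] at h11
    omega
  set F := centralizer ({x} : Set G) ⊓ centralizer ({(t : G)} : Set G) with hF
  have hF225 : Nat.card ↥F ∣ 225 := by
    have h11 : Nat.card ↥F ∣ 19 * 6075 := by
      rw [← h1]
      exact card_dvd_of_le inf_le_left
    have h12 : Nat.card ↥F ∣ Nat.card ↥(centralizer ({(t : G)} : Set G)) := card_dvd_of_le inf_le_right
    rcases NilpHN.card_inv hto with h13 | h13
    · rw [h13] at h12
      exact (Nat.dvd_gcd h11 h12).trans (by norm_num)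
    · rw [h13] at h12
      exact (Nat.dvd_gcd h11 h12).trans (by norm_num)
  have h25 := not_25 (by norm_num) hx (by norm_num) (by norm_num) hto
  rw [← hF] at h25
  have hF45 : Nat.card ↥F ≤ 45 := by
    have h14 : Nat.card ↥F ∣ 5 ^ 2 * 9 := hF225.trans (by norm_num)
    have h15 := dvd_cap (k := 1) Nat.prime_five (by norm_num; exact h25) h14
    exact Nat.le_of_dvd (by norm_num) (h15.trans (by norm_num))
  rw [h1, h10] at h9
  have h16 : Nat.card ↥F ^ 2 ≤ 45 ^ 2 := Nat.pow_le_pow_left hF45 2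
  have h17 := Nat.mul_le_mul_left (19 * 75603375 ^ 2) h16
  have h18 := h9.trans h17
  revert h18
  norm_num

/-! ### The row -/

theorem ab3 : Ab3 Spor.HN := by
  intro A hA
  have hs := simple
  have key : Nat.card A ≤ 64873 := by
    by_cases h2 : 2 ∣ Nat.card A
    · obtain ⟨x, hx, hxA, -⟩ := exists_mem (G := G) hA Nat.prime_two h2
      exact card_le_of_mem (HNInv.abLE_inv hx) hA hxA
    have hd := card_subgroup_dvd_card A
    rw [show Nat.card Spor.HN = NH from card_G,
      show (NH : ℕ) = 2 ^ 14 * (5 ^ 6 * (7 ^ 1 * (11 ^ 1 * (19 ^ 1 * 3 ^ 6)))) by norm_num] at hd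
    have hd := dvd_drop Nat.prime_two h2 hd
    by_cases h5 : 5 ^ 4 ∣ Nat.card A
    · obtain ⟨z, -, hz, h3, hbig, -⟩ := exists_z'
      have h6 := AbLy.big_le (G := G) Nat.prime_five hbig hA h5
      have key : ∀ r : ℕ, r.Prime → ¬ r ∣ 3686400 → ¬ r * r ∣ NH → ¬ r ∣ Nat.card A :=
        fun r hr hr1 hr2 h => hz r hr hr1 hr2 (h.trans h6)
      have h7 := key 7 (by norm_num) (by norm_num) (by norm_num)
      have h11 := key 11 (by norm_num) (by norm_num) (by norm_num)
      have h19 := key 19 (by norm_num) (by norm_num) (by norm_num)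
      have h3' : ¬ 3 ∣ Nat.card A := fun h => h3 (h.trans h6)
      have hd : Nat.card A ∣ 7 ^ 1 * (11 ^ 1 * (19 ^ 1 * (3 ^ 6 * 5 ^ 6))) := hd.trans (dvd_of_eq (by norm_num))
      have hd := dvd_drop (by norm_num) h3' (dvd_drop (by norm_num) h19 (dvd_drop (by norm_num) h11
        (dvd_drop (by norm_num) h7 hd)))
      exact (Nat.le_of_dvd (by norm_num) hd).trans (by norm_num)
    have hd := dvd_cap Nat.prime_five h5 hd
    by_cases h7 : 7 ∣ Nat.card A
    · obtain ⟨x, hx, -, hle⟩ := exists_mem (G := G) hA (by norm_num) h7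
      have h1 := Nat.le_of_dvd (by norm_num) ((card_dvd_cent hle).trans (cent_seven hx))
      exact h1.trans (by norm_num)
    by_cases h11 : 11 ∣ Nat.card A
    · obtain ⟨x, hx, -, hle⟩ := exists_mem (G := G) hA (by norm_num) h11
      have h1 := Nat.le_of_dvd Nat.card_pos (card_dvd_cent hle)
      obtain ⟨m, h3, h4, -⟩ := dat11 hx
      rw [h3] at h1
      have h6 : 11 * m ≤ 11 * 4050 := Nat.mul_le_mul_left _ h4
      exact (h1.trans h6).trans (by norm_num)
    by_cases h19 : 19 ∣ Nat.card A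
    · obtain ⟨x, hx, -, hle⟩ := exists_mem (G := G) hA (by norm_num) h19
      exact ((Nat.le_of_dvd Nat.card_pos (card_dvd_cent hle)).trans (bound19 hx)).trans (by norm_num)
    have h36 : ¬ 3 ^ 6 ∣ Nat.card A := by
      have h3F : Fact (Nat.Prime 3) := ⟨Nat.prime_three⟩
      obtain ⟨Q, hQ, a, ha, b, hb, hab⟩ := HNThree.sylow_three
      obtain ⟨P, hP⟩ := hQ.exists_le_sylow
      refine dvd_of_sylow (G := G) P ?_ (n := 5) ?_ hA
      · intro h
        have h1 := (comm_iff (A := (P : Subgroup G))).1 h a (hP ha) b (hP hb)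
        exact hab h1
      · rw [P.card_eq_multiplicity, card_G, show (NH : ℕ) = 3 ^ 6 * 374528000000 by norm_num]
        have h2 : (374528000000 : ℕ).factorization 3 = 0 := Nat.factorization_eq_zero_of_not_dvd (by norm_num)
        rw [Nat.factorization_mul (by norm_num) (by norm_num), Nat.Prime.factorization_pow Nat.prime_three,
          Finsupp.add_apply, h2, Finsupp.single_eq_same]
    have hd : Nat.card A ∣ 7 ^ 1 * (11 ^ 1 * (19 ^ 1 * (3 ^ 6 * 5 ^ 3))) := hd.trans (dvd_of_eq (by norm_num))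
    have hd := dvd_cap Nat.prime_three h36 (dvd_drop (by norm_num) h19 (dvd_drop (by norm_num) h11
      (dvd_drop (by norm_num) h7 hd)))
    exact (Nat.le_of_dvd (by norm_num) hd).trans (by norm_num)
  rw [show Nat.card Spor.HN = NH from card_G]
  exact (Nat.pow_le_pow_left key 3).trans_lt (by norm_num)

/-- **row HN of S2501** -/
theorem ab3_HN {G : Type*} [Group G] (h : Cfsg.Spor.IsoHN G) : Ab3 G := by
  obtain ⟨e⟩ := h
  exact ab3.congr e.symm

end Cfsg.Agent.H513.AbHN
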