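import Cfsg.Agent.H513.HNInv
import Cfsg.Agent.H513.AbLy

/-!
# Tools for the row HN of S2501 (helper513)
-/

set_option autoImplicit false
set_option maxRecDepth 100000
set_option linter.unusedSectionVars false

namespace Cfsg.Agent.H513.AbHNA

open Subgroup Cfsg.Agent.H513.NilpTools Cfsg.Agent.H513.CentTools Cfsg.Agent.H513.PairBound

universe u

variable {G : Type u} [Group G]

/-- the image of a normalizer -/
theorem NN_map_hom {K : Type*} [Group K] (f : K →* G) (y : K) : (NN y).map f ≤ NN (f y) := by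
  have key : ∀ v ∈ NN y, ∀ w ∈ zpowers (f y), f v * w * (f v)⁻¹ ∈ zpowers (f y) := by
    rintro v hv w ⟨i, rfl⟩
    obtain ⟨j, hj⟩ := (mem_normalizer_iff.1 hv (y ^ i)).1 ⟨i, rfl⟩
    refine ⟨j, ?_⟩
    have h1 := congrArg f hj
    simpa using h1
  rintro _ ⟨v, hv, rfl⟩
  rw [mem_normalizer_iff]
  intro w
  constructor
  · exact fun hw => key v hv w hw
  · intro hw
    have h1 := key v⁻¹ (inv_mem hv) _ hw
    have h2 : f v⁻¹ * (f v * w * (f v)⁻¹) * (f v⁻¹)⁻¹ = w := by rw [map_inv]; group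
    rwa [h2] at h1

variable [Finite G]

/-- elements of order `q` of the normalizer outside the centralizer -/
theorem dvd_norm {w g : G} {q : ℕ} (hq : q.Prime) (hg : orderOf g = q) (hn : g ∈ NN w) (hc : g * w ≠ w * g) :
    Nat.card ↥(centralizer ({w} : Set G)) * q ∣ Nat.card ↥(NN w) := by
  have hqF : Fact q.Prime := ⟨hq⟩
  have h1 : centralizer ((zpowers w : Subgroup G) : Set G) = centralizer ({w} : Set G) := by
    apply le_antisymm
    · intro g hg
      rw [mem_centralizer_singleton_iff]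
      exact ((mem_centralizer_iff.1 hg) w (mem_zpowers w)).symm
    · intro g hg
      rw [mem_centralizer_singleton_iff] at hg
      rw [mem_centralizer_iff]
      rintro y hy
      obtain ⟨k, rfl⟩ := mem_zpowers_iff.1 hy
      exact ((show Commute g w from hg).zpow_right k).eq.symm
  have hker0 : (normalizerMonoidHom (zpowers w)).ker = (centralizer ({w} : Set G)).subgroupOf (NN w) := by
    rw [normalizerMonoidHom_ker, h1]
  have hker : Nat.card (normalizerMonoidHom (zpowers w)).ker = Nat.card ↥(centralizer ({w} : Set G)) := by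
    rw [hker0]
    exact Nat.card_congr (Subgroup.subgroupOfEquivOfLe (cent_le_NN w)).toEquiv
  have h2 := Subgroup.card_mul_index (normalizerMonoidHom (zpowers w)).ker
  rw [hker, index_ker] at h2
  rw [← h2]
  refine Nat.mul_dvd_mul_left _ ?_
  have h3 : orderOf (normalizerMonoidHom (zpowers w) ⟨g, hn⟩) = q := by
    apply orderOf_eq_prime
    · rw [← map_pow]
      have h4 : (⟨g, hn⟩ : ↥(NN w)) ^ q = 1 := Subtype.ext (by change g ^ q = 1; rw [← hg, pow_orderOf_eq_one])
      rw [h4, map_one]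
    · intro h4
      apply hc
      have h5 : (⟨g, hn⟩ : ↥(NN w)) ∈ (normalizerMonoidHom (zpowers w)).ker := h4
      rw [hker0, mem_subgroupOf] at h5
      exact mem_centralizer_singleton_iff.1 h5
  have h4 := orderOf_dvd_natCard (⟨normalizerMonoidHom (zpowers w) ⟨g, hn⟩, ⟨(⟨g, hn⟩ : ↥(NN w)), rfl⟩⟩ :
    ↥(normalizerMonoidHom (zpowers w)).range)
  rw [← Subgroup.orderOf_coe] at h4
  rw [← h3]
  exact h4

/-- the number of involutions, two classes -/
theorem card_invol_two {t t' : G} (h : ∀ s : G, orderOf s = 2 → (∃ g : G, g * t * g⁻¹ = s) ∨ ∃ g : G, g * t' * g⁻¹ = s) :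
    Nat.card (II G) ≤ (centralizer ({t} : Set G)).index + (centralizer ({t'} : Set G)).index := by
  classical
  have key : ∀ (t : G) (g g' : G), g⁻¹ * g' ∈ centralizer ({t} : Set G) → g * t * g⁻¹ = g' * t * g'⁻¹ := by
    intro t g g' h1
    have h2 := mem_centralizer_singleton_iff.1 h1
    calc g * t * g⁻¹ = g * (t * (g⁻¹ * g')) * g'⁻¹ := by group
      _ = g * ((g⁻¹ * g') * t) * g'⁻¹ := by rw [h2]
      _ = g' * t * g'⁻¹ := by group
  let f : II G → (G ⧸ centralizer ({t} : Set G)) ⊕ (G ⧸ centralizer ({t'} : Set G)) := fun s =>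
    if hs : ∃ g : G, g * t * g⁻¹ = s.1 then Sum.inl (QuotientGroup.mk hs.choose)
    else Sum.inr (QuotientGroup.mk ((h s.1 s.2).resolve_left hs).choose)
  have hf : Function.Injective f := by
    intro s s' hss
    by_cases h1 : ∃ g : G, g * t * g⁻¹ = s.1
    · by_cases h2 : ∃ g : G, g * t * g⁻¹ = s'.1
      · have e1 : f s = Sum.inl (QuotientGroup.mk h1.choose) := dif_pos h1
        have e2 : f s' = Sum.inl (QuotientGroup.mk h2.choose) := dif_pos h2
        rw [e1, e2] at hss
        have h3 := key t _ _ (QuotientGroup.eq.1 (Sum.inl.inj hss))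
        apply Subtype.ext
        rw [← h1.choose_spec, ← h2.choose_spec]
        exact h3
      · have e1 : f s = Sum.inl (QuotientGroup.mk h1.choose) := dif_pos h1
        have e2 : f s' = Sum.inr (QuotientGroup.mk ((h s'.1 s'.2).resolve_left h2).choose) := dif_neg h2
        rw [e1, e2] at hss
        exact absurd hss (by simp)
    · by_cases h2 : ∃ g : G, g * t * g⁻¹ = s'.1
      · have e1 : f s = Sum.inr (QuotientGroup.mk ((h s.1 s.2).resolve_left h1).choose) := dif_neg h1
        have e2 : f s' = Sum.inl (QuotientGroup.mk h2.choose) := dif_pos h2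
        rw [e1, e2] at hss
        exact absurd hss (by simp)
      · have e1 : f s = Sum.inr (QuotientGroup.mk ((h s.1 s.2).resolve_left h1).choose) := dif_neg h1
        have e2 : f s' = Sum.inr (QuotientGroup.mk ((h s'.1 s'.2).resolve_left h2).choose) := dif_neg h2
        rw [e1, e2] at hss
        have h3 := key t' _ _ (QuotientGroup.eq.1 (Sum.inr.inj hss))
        apply Subtype.ext
        rw [← ((h s.1 s.2).resolve_left h1).choose_spec, ← ((h s'.1 s'.2).resolve_left h2).choose_spec]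
        exact h3
  have h1 := Nat.card_le_card_of_injective f hf
  rw [Nat.card_sum] at h1
  exact h1

/-- subgroups of full `p`-part -/
theorem exists_conj_mem {p n : ℕ} (hp : p.Prime) (hX : ¬ p ^ (n + 1) ∣ Nat.card G) {B : Subgroup G}
    (hB : p ^ n ∣ Nat.card ↥B) {z : G} (hz : orderOf z = p) : ∃ g : G, g * z * g⁻¹ ∈ B := by
  have : Fact p.Prime := ⟨hp⟩
  obtain ⟨P0⟩ : Nonempty (Sylow p ↥B) := inferInstance
  have h1 : p ^ n ∣ Nat.card ↥(P0 : Subgroup ↥B) := P0.pow_dvd_card_of_pow_dvd_card hB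
  set P1 := (P0 : Subgroup ↥B).map B.subtype with hP1
  have h2 : p ^ n ∣ Nat.card ↥P1 := by
    rw [hP1, card_map_of_injective B.subtype_injective]
    exact h1
  obtain ⟨Q, hQ⟩ := (P0.isPGroup'.map B.subtype).exists_le_sylow
  have h3 : P1 = (Q : Subgroup G) := by
    refine eq_of_le_of_card_ge hQ ?_
    obtain ⟨k, hk⟩ := IsPGroup.iff_card.1 Q.isPGroup'
    have h4 : k ≤ n := by
      by_contra hlt
      apply hX
      refine (pow_dvd_pow p (show n + 1 ≤ k by omega)).trans ?_
      rw [← hk]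
      exact card_subgroup_dvd_card _
    rw [hk]
    exact (Nat.pow_le_pow_right hp.pos h4).trans (Nat.le_of_dvd Nat.card_pos h2)
  have h4 : IsPGroup p ↥(zpowers z) := IsPGroup.of_card (n := 1) (by rw [Nat.card_zpowers, hz, pow_one])
  obtain ⟨Q', hQ'⟩ := h4.exists_le_sylow
  obtain ⟨g, hg⟩ := MulAction.exists_smul_eq G Q' Q
  refine ⟨g, ?_⟩
  have h5 : g * z * g⁻¹ ∈ P1 := by
    rw [h3, ← hg, Sylow.coe_subgroup_smul]
    exact ⟨z, hQ' (mem_zpowers z), rfl⟩
  obtain ⟨b, -, hb⟩ := h5
  rw [← hb]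
  exact b.2

/-- subgroups of order `p ^ 2` of a nonabelian group of order `p ^ 3` -/
theorem mem_of_sq_dvd {p : ℕ} (hp : p.Prime) (hX : Nat.card G = p ^ 3) {z : G} (hz : z ∈ center G)
    (hoz : orderOf z = p) (hnc : ∃ c d : G, c * d ≠ d * c) {B : Subgroup G} (hB : p ^ 2 ∣ Nat.card ↥B) : z ∈ B := by
  have : Fact p.Prime := ⟨hp⟩
  by_contra hzB
  have hZ : (zpowers z).Normal := by
    refine ⟨fun x hx g => ?_⟩
    rw [mem_center_iff.1 ((zpowers_le.2 hz) hx) g, mul_inv_cancel_right]
    exact hx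
  have hinf : B ⊓ zpowers z = ⊥ := by
    rw [inf_comm]
    by_contra hne
    obtain ⟨⟨v, hv⟩, hv1⟩ := (Subgroup.ne_bot_iff_exists_ne_one).1 hne
    have hv1' : v ≠ 1 := fun h => hv1 (Subtype.ext h)
    have h1 : zpowers v = zpowers z := by
      refine eq_of_le_of_card_ge (zpowers_le.2 hv.1) ?_
      rw [Nat.card_zpowers, Nat.card_zpowers, hoz]
      have h2 : v ^ p = 1 := by
        obtain ⟨k, hk⟩ := mem_zpowers_iff.1 hv.1
        rw [← hk, ← zpow_natCast, ← zpow_mul, mul_comm, zpow_mul, zpow_natCast, ← hoz, pow_orderOf_eq_one, one_zpow]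
      rw [orderOf_eq_prime h2 hv1']
    apply hzB
    have h2 : z ∈ zpowers v := by rw [h1]; exact mem_zpowers z
    exact (zpowers_le.2 hv.2) h2
  have h1 := card_sup_mul_card_inf B (zpowers z)
  rw [hinf, Subgroup.card_bot, mul_one, Nat.card_zpowers, hoz] at h1
  have h2 : Nat.card ↥(B ⊔ zpowers z) ∣ p ^ 3 := by rw [← hX]; exact card_subgroup_dvd_card _
  obtain ⟨k, hk⟩ := hB
  have hcB : Nat.card ↥B = p ^ 2 := by
    rw [h1, hk] at h2
    have h3 : p ^ 3 * k ∣ p ^ 3 * 1 := by
      rw [mul_one]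
      exact (dvd_of_eq (by ring)).trans h2
    have h4 := Nat.dvd_of_mul_dvd_mul_left (pow_pos hp.pos 3) h3
    rw [hk, Nat.dvd_one.1 h4, mul_one]
  have htop : B ⊔ zpowers z = ⊤ := by
    apply Subgroup.eq_top_of_card_eq
    rw [h1, hcB, hX]
    ring
  have hcomm : ∀ a ∈ B, ∀ b ∈ B, a * b = b * a := by
    have h3 := IsPGroup.isMulCommutative_of_card_eq_prime_sq (G := ↥B) hcB
    intro a ha b hb
    exact congrArg Subtype.val (h3.is_comm.comm ⟨a, ha⟩ ⟨b, hb⟩)
  obtain ⟨c, d, hcd⟩ := hnc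
  apply hcd
  have hc : c ∈ B ⊔ zpowers z := by rw [htop]; exact mem_top _
  have hd : d ∈ B ⊔ zpowers z := by rw [htop]; exact mem_top _
  obtain ⟨a, ha, u, hu, rfl⟩ := mem_sup_of_normal_right.1 hc
  obtain ⟨b, hb, v, hv, rfl⟩ := mem_sup_of_normal_right.1 hd
  have hzc : ∀ u ∈ zpowers z, ∀ x : G, x * u = u * x := fun u hu x => mem_center_iff.1 ((zpowers_le.2 hz) hu) x
  calc a * u * (b * v) = a * (u * b) * v := by group
    _ = a * b * (u * v) := by rw [← hzc u hu b]; group
    _ = b * a * (v * u) := by rw [hcomm a ha b hb, hzc v hv u]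
    _ = b * (a * v) * u := by group
    _ = b * (v * a) * u := by rw [hzc v hv a]
    _ = b * v * (a * u) := by group

end Cfsg.Agent.H513.AbHNA
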