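import Cfsg.Agent.H513.HNSeven

/-!
# An element of type II of `HN` with centralizer of order prime to 3 (helper513)
-/

set_option autoImplicit false
set_option maxRecDepth 100000
set_option linter.unusedSectionVars false

namespace Cfsg.Agent.H513.HNZ

section Abs

open Subgroup Cfsg.Agent.H513.NilpTools

universe u

variable {H : Type u} [Group H] [Finite H] {s z : H} {T : Subgroup H}

/-- **a prime dividing `|C(z)|` but not `|C(z) ∩ C(s)|`** -/
theorem exists_comm_of_dvd (h : Ex s z T) {N : Subgroup H} (hcr : Cr s z 5 N) {q : ℕ} (hq : q.Prime) (hq2 : q ≠ 2)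
    (hq5 : q ≠ 5) (hC : ¬ q ∣ Nat.card ↥(centralizer ({s} : Set H))) (hd : q ∣ Nat.card H) {d : H} (hdT : d ∈ T)
    (hd2 : orderOf d = 2) (hds : d ≠ s) : ∃ w : H, orderOf w = q ∧ w * d = d * w := by
  have : Fact q.Prime := ⟨hq⟩
  have hZ := hcr.normalZ
  obtain ⟨y, hy⟩ := exists_prime_orderOf_dvd_card' q hd
  have hyq : y ^ q = 1 := by rw [← hy, pow_orderOf_eq_one]
  have hyN : y ∈ N := hcr.mem_N hyq ((Nat.Prime.coprime_iff_not_dvd hq).2 hC)
  have hqo : Odd q := hq.odd_of_ne_two hq2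
  have hcop : Nat.gcd 5 q = 1 := ((Nat.coprime_primes Nat.prime_five hq).2 (Ne.symm hq5))
  obtain ⟨hinv, hcomm⟩ := hcr.quot
  set π := QuotientGroup.mk' (zpowers z) with hπ
  have hn := hcr.normal
  have hNb : (N.map π).Normal := hn.map _ (QuotientGroup.mk'_surjective _)
  set W := ThFive.tors (N.map π) hcomm q with hW
  have hWn : W.Normal := ThFive.tors_normal hNb
  have hWN : ∀ w ∈ W, w ∈ N.map π := fun w hw => hw.1
  have hWq : ∀ w ∈ W, w ^ q = 1 := fun w hw => hw.2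
  have hyW : π y ∈ W := ⟨⟨y, hyN, rfl⟩, by rw [← map_pow, hyq, map_one]⟩
  have hz5 : z ^ 5 = 1 := by rw [← h.oz, pow_orderOf_eq_one]
  have hdd : d * d = 1 := by rw [← pow_two, ← hd2, pow_orderOf_eq_one]
  have hdi : (π d)⁻¹ = π d := by rw [← map_inv, inv_eq_of_mul_eq_one_right hdd]
  have hss : s * s = 1 := h.ss
  by_contra hcon
  push Not at hcon
  -- elements of `W` commuting with `d`
  have key : ∀ a ∈ W, a * π d = π d * a → a = 1 := by
    intro a ha had
    by_contra ha1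
    obtain ⟨n, hnN, rfl⟩ := hWN a ha
    have h1 : n ^ q ∈ zpowers z := by
      have h2 := hWq _ ha
      rw [← map_pow] at h2
      exact (QuotientGroup.eq_one_iff _).1 h2
    have h2 : (n ^ 5) ^ q = 1 := by
      rw [← pow_mul, mul_comm, pow_mul]
      exact hcr.c_pow h1
    have h3 : n ^ 5 ≠ 1 := by
      intro h4
      apply ha1
      have h5 : (π n) ^ 5 = 1 := by rw [← map_pow, h4, map_one]
      have h6 := pow_gcd_eq_one.2 ⟨h5, hWq _ ha⟩
      rwa [hcop, pow_one] at h6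
    refine hcon (n ^ 5) (orderOf_eq_prime h2 h3) ?_
    refine FourCent.comm_of_quot (by decide : Odd 5) h.cen hz5 hdd ?_
    change π (n ^ 5) * π d = π d * π (n ^ 5)
    rw [map_pow]
    exact ((show Commute (π n) (π d) from had).pow_left 5).eq
  obtain ⟨e, he, hed⟩ : ∃ e ∈ T, e * d ≠ d * e := by
    by_contra hcon
    push Not at hcon
    rcases h.cent d hdT (fun t ht => (hcon t ht).symm) with h1 | h1
    · rw [h1, orderOf_one] at hd2
      norm_num at hd2
    · exact hds h1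
  have hed' := (h.comm e he d hdT).resolve_left hed
  have hes := h.ts e he
  have hconj : e * d * e⁻¹ = d * s := by
    rw [hed', mul_assoc d e s, hes]
    group
  have key2 : ∀ a ∈ W, π (d * s) * a = a * π (d * s) → a = 1 := by
    intro a ha had
    have h1 : (π e)⁻¹ * a * π e ∈ W := by
      have h2 := hWn.conj_mem a ha (π e)⁻¹
      rwa [inv_inv] at h2
    have h2 := key _ h1 (by
      rw [← hconj, map_mul, map_mul, map_inv] at had
      calc (π e)⁻¹ * a * π e * π d = (π e)⁻¹ * (a * (π e * π d * (π e)⁻¹)) * π e := by group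
        _ = (π e)⁻¹ * (π e * π d * (π e)⁻¹ * a) * π e := by rw [had]
        _ = _ := by group)
    have h3 : a = π e * ((π e)⁻¹ * a * π e) * (π e)⁻¹ := by group
    rw [h3, h2, mul_one, mul_inv_cancel]
  -- `d` inverts `W`
  have key3 : ∀ a ∈ W, π d * a * (π d)⁻¹ = a⁻¹ := by
    intro a ha
    have h0 : π d * a * (π d)⁻¹ ∈ W := hWn.conj_mem a ha _
    have h1 : a * (π d * a * (π d)⁻¹) = (π d * a * (π d)⁻¹) * a := hcomm _ (hWN _ ha) _ (hWN _ h0)
    have hdd' : π d * π d = 1 := by rw [← map_mul, hdd, map_one]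
    have h2 := key (a * (π d * a * (π d)⁻¹)) (mul_mem ha h0) (by
      rw [hdi] at h1 ⊢
      calc a * (π d * a * π d) * π d = a * π d * a * (π d * π d) := by group
        _ = (π d * π d) * (a * π d * a) := by rw [hdd', mul_one, one_mul]
        _ = π d * ((π d * a * π d) * a) := by group
        _ = π d * (a * (π d * a * π d)) := by rw [h1])
    exact (inv_eq_of_mul_eq_one_right h2).symm
  have h1 := (inv_iff (W := W) (s := π s) (d := π d) (fun w hw => hinv w (hWN w hw)) hyW).1 (key3 _ hyW)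
  rw [← map_mul] at h1
  have h2 := key2 _ hyW h1
  have h3 : y ∈ zpowers z := (QuotientGroup.eq_one_iff y).1 h2
  have h4 := orderOf_dvd_of_pow_eq_one (hcr.c_pow h3)
  rw [hy] at h4
  exact hq5 ((Nat.prime_dvd_prime_iff_eq hq Nat.prime_five).1 h4)

end Abs

open Cfsg.Agent.HN.Pres Cfsg.Agent.HN.H0Basic
open Cfsg.Agent.HN.P1408 hiding ψ
open Cfsg.Agent.HN.XWords (W0 W0_sq)
open Cfsg.Agent.HN.NormalH (ψ)
open Cfsg Cfsg.Agent
open Cfsg.Agent.KFacts.HN
open Cfsg.Agent.CpAutTh.RankOne (UInv)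
open Cfsg.Agent.CpAutHNFive Cfsg.Agent.CpAutHNFive.LFive Cfsg.Agent.CpAutHNFive.PFive
open Cfsg.Agent.CpAutHNFive.TFive Cfsg.Agent.CpAutHNFive.HTab Cfsg.Agent.CpAutHNFive.HFacts
open Cfsg.Agent.CpAutHNFive.TauFive Cfsg.Agent.BpSpor.HNFiveA
open Cfsg.Agent.H513.NilpHN Cfsg.Agent.H513.NilpTools
open Subgroup

/-- **an element of type II** -/
theorem exists_data' : ∃ y : PP, orderOf y = 5 ∧ ρ y = φA LFive.c5 * φB (LFive.c5 ^ 3) ∧
    (∃ (g : PP) (m : ℕ), 1 ≤ m ∧ m < 5 ∧ (g : G) * ψ (hw w1) ^ m * (g : G)⁻¹ = (y : G)) ∧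
    ∃ c d : G, c ^ 5 = 1 ∧ d ^ 5 = 1 ∧
    c * y = y * c ∧ d * y = y * d ∧ c * d ≠ d * c ∧ W0 * c * W0⁻¹ = c⁻¹ ∧ W0 * d * W0⁻¹ = d⁻¹ := by
  let x : PP := ⟨ψ (hw w1), w1_PP⟩
  have hox : orderOf (ψ (hw w1)) = 5 := by rw [orderOf_injective _ emb.inj, order_w1]
  have hx : orderOf x = 5 := by rw [← Subgroup.orderOf_coe]; exact hox
  obtain ⟨g, m, hm1, hm5, h⟩ := conj_std hx
  let y : PP := g * x ^ m * g⁻¹
  have hy5 : orderOf y = 5 := by
    have h1 : orderOf (x ^ m) = 5 := by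
      rw [orderOf_pow, hx]
      interval_cases m <;> rfl
    rw [← h1]
    exact MulEquiv.orderOf_eq (MulAut.conj g) _
  have hy : (g : G) * ψ (hw w1) ^ m * (g : G)⁻¹ = (y : G) := rfl
  obtain ⟨e⟩ := cequiv_pow hox hm1 hm5 hy
  have hii : ρ y = φA LFive.c5 * φB (LFive.c5 ^ 3) := by
    rcases h with h | h | h
    · exfalso
      have h1 := (CpAutTh.RankOne.uInv_of_unique (order_sx y) (unique_one h)).1
      apply not_uInv
      intro a b ha hb hab
      apply e.injective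
      apply h1
      · rw [MulEquiv.orderOf_eq, ha]
      · rw [MulEquiv.orderOf_eq, hb]
      · rw [← map_mul, hab, map_mul]
    · exfalso
      have h2 := card_three (x := y) h
      rw [card_pair] at h2
      have h3 : (centralizer ({ψ (hw w1)} : Set G) ⊓ centralizer ({W0} : Set G)).map (MulAut.conj (g : G)).toMonoidHom =
          centralizer ({(y : G)} : Set G) ⊓ centralizer ({W0} : Set G) := by
        have hgW : (g : G) * W0 * (g : G)⁻¹ = W0 := by rw [mem_PP.1 g.2, mul_inv_cancel_right]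
        rw [Subgroup.map_inf _ _ _ (MulAut.conj (g : G)).injective, ← centralizer_pow hox hm1 hm5, map_centralizer,
          map_centralizer, hgW, hy]
      rw [← h3] at h2
      rw [← Nat.card_congr ((centralizer ({ψ (hw w1)} : Set G) ⊓ centralizer ({W0} : Set G)).equivMapOfInjective
        (MulAut.conj (g : G)).toMonoidHom (MulAut.conj (g : G)).injective).toEquiv] at h2
      have h10 := eight_dvd.trans h2
      norm_num at h10
    · exact h
  have hgW : (g : G) * W0 = W0 * (g : G) := mem_PP.1 g.2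
  -- conjugation
  have key5 : ∀ w : List ℕ, hw w ^ 5 = 1 → ((g : G) * ψ (hw w) * (g : G)⁻¹) ^ 5 = 1 := by
    intro w hw5
    rw [conj_pow, ← map_pow, hw5, map_one, mul_one, mul_inv_cancel]
  have keyc : ∀ w : List ℕ, hw w * hw w1 = hw w1 * hw w →
      ((g : G) * ψ (hw w) * (g : G)⁻¹) * (y : G) = (y : G) * ((g : G) * ψ (hw w) * (g : G)⁻¹) := by
    intro w hwc
    have h1 : ψ (hw w) * ψ (hw w1) ^ m = ψ (hw w1) ^ m * ψ (hw w) := by
      have h2 : ψ (hw w) * ψ (hw w1) = ψ (hw w1) * ψ (hw w) := by rw [← map_mul, hwc, map_mul]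
      exact ((show Commute _ _ from h2).pow_right m).eq
    rw [← hy]
    calc (g : G) * ψ (hw w) * (g : G)⁻¹ * ((g : G) * ψ (hw w1) ^ m * (g : G)⁻¹) =
        (g : G) * (ψ (hw w) * ψ (hw w1) ^ m) * (g : G)⁻¹ := by group
      _ = (g : G) * (ψ (hw w1) ^ m * ψ (hw w)) * (g : G)⁻¹ := by rw [h1]
      _ = _ := by group
  have keyi : ∀ w : List ℕ, hw ws * hw w * hw ws * hw w = 1 →
      W0 * ((g : G) * ψ (hw w) * (g : G)⁻¹) * W0⁻¹ = ((g : G) * ψ (hw w) * (g : G)⁻¹)⁻¹ := by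
    intro w hwi
    have hWi : W0⁻¹ = W0 := inv_eq_of_mul_eq_one_right W0_sq
    have hgWi : (g : G)⁻¹ * W0 = W0 * (g : G)⁻¹ := by
      rw [inv_mul_eq_iff_eq_mul, ← mul_assoc, hgW, mul_inv_cancel_right]
    have h1 : W0 * ψ (hw w) * W0 = (ψ (hw w))⁻¹ := by
      rw [← ψ_ws, ← map_mul, ← map_mul, ← map_inv]
      congr 1
      exact mul_eq_one_iff_eq_inv.1 hwi
    rw [hWi]
    calc W0 * ((g : G) * ψ (hw w) * (g : G)⁻¹) * W0 = (W0 * (g : G)) * ψ (hw w) * ((g : G)⁻¹ * W0) := by group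
      _ = (g : G) * (W0 * ψ (hw w) * W0) * (g : G)⁻¹ := by rw [← hgW, hgWi]; group
      _ = _ := by rw [h1]; group
  refine ⟨y, hy5, hii, ⟨g, m, hm1, hm5, hy⟩, (g : G) * ψ (hw wcc) * (g : G)⁻¹, (g : G) * ψ (hw wdd) * (g : G)⁻¹, key5 _ cc_five, key5 _ dd_five,
    keyc _ cc_comm, keyc _ dd_comm, ?_, keyi _ cc_inv, keyi _ dd_inv⟩
  intro h1
  apply not_comm
  apply emb.inj
  rw [map_mul, map_mul]
  have h2 : (g : G) * (ψ (hw wcc) * ψ (hw wdd)) * (g : G)⁻¹ = (g : G) * (ψ (hw wdd) * ψ (hw wcc)) * (g : G)⁻¹ := by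
    calc (g : G) * (ψ (hw wcc) * ψ (hw wdd)) * (g : G)⁻¹ =
        (g : G) * ψ (hw wcc) * (g : G)⁻¹ * ((g : G) * ψ (hw wdd) * (g : G)⁻¹) := by group
      _ = (g : G) * ψ (hw wdd) * (g : G)⁻¹ * ((g : G) * ψ (hw wcc) * (g : G)⁻¹) := h1
      _ = _ := by group
  exact mul_left_cancel (mul_right_cancel h2)


/-- `3 ∤ |C(y) ∩ C(W0)|`, `y` of type II -/
theorem not_three_CH {y : PP} (hρ : ρ y = φA LFive.c5 * φB (LFive.c5 ^ 3)) :
    ¬ 3 ∣ Nat.card ↥(centralizer ({sx y} : Set ↥(centralizer ({(y : G)} : Set G)))) := by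
  intro hd
  have : Fact (Nat.Prime 3) := ⟨Nat.prime_three⟩
  obtain ⟨u, hu⟩ := exists_prime_orderOf_dvd_card' 3 hd
  have hu3 : u ^ 3 = 1 := by rw [← hu, pow_orderOf_eq_one]
  have h1 := fC_comm y u
  rw [hρ] at h1
  have h2 := pow_of_comm (mem_LL_of_comm h1) (Or.inr rfl) h1
  have h3 : (fC y u) ^ 3 = 1 := by rw [← map_pow, hu3, map_one]
  have h4 := pow_gcd_eq_one.2 ⟨h2, h3⟩
  rw [show Nat.gcd 5 3 = 1 by norm_num, pow_one] at h4
  obtain ⟨k, hk⟩ := ker_two y ⟨u, h4⟩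
  have hk' : u ^ 2 ^ k = 1 := congrArg Subtype.val hk
  have h5 := pow_gcd_eq_one.2 ⟨hk', hu3⟩
  have h6 : Nat.gcd (2 ^ k) 3 = 1 := Nat.Coprime.pow_left k (by norm_num)
  rw [h6, pow_one] at h5
  rw [h5, orderOf_one] at hu
  norm_num at hu

/-- **the element `z`** -/
theorem exists_z' : ∃ z : G, orderOf z = 5 ∧ (∀ r : ℕ, r.Prime → ¬ r ∣ 3686400 → ¬ r * r ∣ 273030912000000 →
    ¬ r ∣ Nat.card ↥(centralizer ({z} : Set G))) ∧ (¬ 3 ∣ Nat.card ↥(centralizer ({z} : Set G))) ∧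
    (∀ B : Subgroup G, IsPGroup 5 ↥B → 5 ^ 4 ∣ Nat.card ↥B → ∃ g : G, g * z * g⁻¹ ∈ B) ∧
    (∃ (g : G) (m : ℕ), 1 ≤ m ∧ m < 5 ∧ g * ψ (hw w1) ^ m * g⁻¹ = z) ∧ z * W0 = W0 * z := by
  obtain ⟨y, hy, hρ, ⟨g, n, hn1, hn5, hg⟩, c, d, hc5, hd5, hcy, hdy, hcd, hci, hdi⟩ := exists_data'
  have hex := ex_two hy hρ
  obtain ⟨N, hcr⟩ := hex.exists_cr
  have hZ := hcr.normalZ
  have h7 : ¬ 5 ^ 7 ∣ Nat.card G := by rw [card_G]; norm_num
  refine ⟨(y : G), by rw [Subgroup.orderOf_coe]; exact hy, ?_, ?_, ?_, ⟨g, n, hn1, hn5, hg⟩, mem_PP.1 y.2⟩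
  · intro r hr hrC hr2
    refine hcr.not_dvd hr ?_ ?_ hex.s_mem_commutator
    · intro hd
      apply hr2
      rw [← card_G]
      exact hd.trans (card_subgroup_dvd_card _)
    · intro hd
      apply hrC
      rw [← card_PP]
      exact hd.trans (card_dvd_of_injective (toPP y) (toPP_inj y))
  · intro h3
    -- the involution `g (ψ τ) g⁻¹`
    set d0 : G := (g : G) * ψ τ * (g : G)⁻¹ with hd0
    have hd0y : d0 * y = y * d0 := by
      have h1 : ψ τ * ψ (hw w1) ^ n = ψ (hw w1) ^ n * ψ τ := by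
        rw [← map_pow, ← map_mul, ← map_mul, τ_comm]
      rw [← hg, hd0]
      calc (g : G) * ψ τ * (g : G)⁻¹ * ((g : G) * ψ (hw w1) ^ n * (g : G)⁻¹) =
          (g : G) * (ψ τ * ψ (hw w1) ^ n) * (g : G)⁻¹ := by group
        _ = (g : G) * (ψ (hw w1) ^ n * ψ τ) * (g : G)⁻¹ := by rw [h1]
        _ = _ := by group
    have hgW : (g : G) * W0 = W0 * (g : G) := mem_PP.1 g.2
    have hgW' : (g : G)⁻¹ * W0 = W0 * (g : G)⁻¹ := by
      rw [inv_mul_eq_iff_eq_mul, ← mul_assoc, hgW, mul_inv_cancel_right]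
    have hτW : ψ τ * W0 = W0 * ψ τ := by
      rw [hW, ← map_mul, ← map_mul, ← τ_comm (Cfsg.Agent.HN.Syl.a * τ)]
    have hd0W : d0 * W0 = W0 * d0 := by
      calc d0 * W0 = (g : G) * ψ τ * ((g : G)⁻¹ * W0) := by rw [hd0]; group
        _ = (g : G) * (ψ τ * W0) * (g : G)⁻¹ := by rw [hgW']; group
        _ = ((g : G) * W0) * ψ τ * (g : G)⁻¹ := by rw [hτW]; group
        _ = W0 * d0 := by rw [hgW, hd0]; group
    have hd0o : orderOf d0 = 2 := by
      rw [← HNSeven.order_ψτ]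
      exact MulEquiv.orderOf_eq (MulAut.conj (g : G)) (ψ τ)
    have hd0ne : d0 ≠ W0 := by
      intro h1
      have h2 : ψ τ = W0 := by
        calc ψ τ = (g : G)⁻¹ * d0 * (g : G) := by rw [hd0]; group
          _ = (g : G)⁻¹ * W0 * (g : G) := by rw [h1]
          _ = W0 := by rw [hgW']; group
      rw [hW] at h2
      have h3 := emb.inj h2
      have h4 : Cfsg.Agent.HN.Syl.a = 1 := (mul_eq_right.1 h3.symm)
      exact Cfsg.Agent.HN.Classes.a_ne_one h4
    let d' : ↥(centralizer ({(y : G)} : Set G)) := ⟨d0, mem_centralizer_singleton_iff.2 hd0y⟩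
    have hd'T := hex.all d' 1 (by
      apply Subtype.ext
      change d0 ^ 2 ^ 1 = 1
      rw [pow_one, ← hd0o, pow_orderOf_eq_one]) (Subtype.ext hd0W)
    obtain ⟨w, hw3, hwd⟩ := exists_comm_of_dvd hex hcr Nat.prime_three (by norm_num) (by norm_num) (not_three_CH hρ) h3
      hd'T (by rw [← Subgroup.orderOf_coe]; exact hd0o) (fun h => hd0ne (congrArg Subtype.val h))
    have hw3' : orderOf (w : G) = 3 := by rw [Subgroup.orderOf_coe]; exact hw3
    have hwy : (w : G) * y = y * w := mem_centralizer_singleton_iff.1 w.2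
    have hwd' : (w : G) * d0 = d0 * w := congrArg Subtype.val hwd
    -- conjugate back
    have h4 : (g : G)⁻¹ * w * g * ψ τ = ψ τ * ((g : G)⁻¹ * w * g) := by
      calc (g : G)⁻¹ * w * g * ψ τ = (g : G)⁻¹ * (w * d0) * g := by rw [hd0]; group
        _ = (g : G)⁻¹ * (d0 * w) * g := by rw [hwd']
        _ = _ := by rw [hd0]; group
    obtain ⟨v, hv⟩ := emb.cent _ h4
    have hvo : orderOf v = 3 := by
      rw [← orderOf_injective ψ emb.inj, hv, ← hw3']
      have h5 := MulEquiv.orderOf_eq (MulAut.conj ((g : G)⁻¹)) (w : G)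
      have h6 : (MulAut.conj ((g : G)⁻¹)) (w : G) = (g : G)⁻¹ * w * g := by
        rw [MulAut.conj_apply, inv_inv]
      rw [← h6]
      exact h5
    have hvc : v * hw w1 ^ n = hw w1 ^ n * v := by
      apply emb.inj
      rw [map_mul, map_mul, hv, map_pow]
      calc (g : G)⁻¹ * w * g * ψ (hw w1) ^ n = (g : G)⁻¹ * (w * ((g : G) * ψ (hw w1) ^ n * (g : G)⁻¹)) * g := by group
        _ = (g : G)⁻¹ * ((g : G) * ψ (hw w1) ^ n * (g : G)⁻¹ * w) * g := by rw [hg, hwy]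
        _ = _ := by group
    have h5 : v ∈ centralizer ({hw w1 ^ n} : Set H0) := mem_centralizer_singleton_iff.2 hvc
    rw [HNH0.cent_pow_eq Nat.prime_five order_w1 hn1 hn5] at h5
    exact HNH0.not_three (CentTools.dvd_cent hvo (mem_centralizer_singleton_iff.1 h5).symm)
  · have hcN := hcr.mem_of_inv (v := (⟨c, mem_centralizer_singleton_iff.2 hcy⟩ : ↥(centralizer ({(y : G)} : Set G))))
      (m := 5) (Subtype.ext hci) (by decide) (Subtype.ext hc5)
    have hdN := hcr.mem_of_inv (v := (⟨d, mem_centralizer_singleton_iff.2 hdy⟩ : ↥(centralizer ({(y : G)} : Set G))))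
      (m := 5) (Subtype.ext hdi) (by decide) (Subtype.ext hd5)
    obtain ⟨h6, hbig⟩ := hcr.mem_of_big (fun hd => h7 (hd.trans (card_subgroup_dvd_card _))) (dvd_card hy hρ)
      (hex.irr hcr) hcN (Subtype.ext hc5) hdN (Subtype.ext hd5) (fun h => hcd (congrArg Subtype.val h))
    intro B hB hBd
    refine exists_conj_mem_of_big Nat.prime_five h6 h7 ?_ hB hBd
    intro B hBH hBp hB4
    have h1 := hbig (B.subgroupOf (centralizer ({(y : G)} : Set G)))
      (hBp.comap_of_injective (centralizer ({(y : G)} : Set G)).subtype (centralizer ({(y : G)} : Set G)).subtype_injective)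
      (by rw [Nat.card_congr (Subgroup.subgroupOfEquivOfLe hBH).toEquiv]; exact hB4)
    exact mem_subgroupOf.1 h1

end Cfsg.Agent.H513.HNZ
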