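import Cfsg.Agent.H838.KW.TwoDef
import Cfsg.Agent.ClassicalGeometry.PSL2Basic

/-!
# `SL_2(q) ≤ Z ≤ GL_2(q)` gives `TwoGp` (helper513, task 3488)
-/

set_option autoImplicit false

namespace Cfsg.Agent.H513.KwTwo

open Matrix Subgroup Cfsg.Agent.H838.KW

variable {E : Type*} [Field E]

/-- `[0 1; -1 0]` -/
def wsl : SpecialLinearGroup (Fin 2) E := ⟨!![0, 1; -1, 0], by simp [det_fin_two]⟩

/-- `[a b; b -a]` -/
def tsl (a b : E) (h : a ^ 2 + b ^ 2 = -1) : SpecialLinearGroup (Fin 2) E :=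
  ⟨!![a, b; b, -a], by rw [det_fin_two]; simp; linear_combination -h⟩

theorem wsl_sq : (wsl * wsl : SpecialLinearGroup (Fin 2) E) = -1 := by
  apply Subtype.ext
  show (!![0, 1; -1, 0] : Matrix (Fin 2) (Fin 2) E) * !![0, 1; -1, 0] = -(1 : Matrix (Fin 2) (Fin 2) E)
  ext i j
  fin_cases i <;> fin_cases j <;> simp [Matrix.mul_apply, Fin.sum_univ_two]

theorem tsl_sq {a b : E} (h : a ^ 2 + b ^ 2 = -1) : tsl a b h * tsl a b h = -1 := by
  apply Subtype.ext
  show (!![a, b; b, -a] : Matrix (Fin 2) (Fin 2) E) * !![a, b; b, -a] = -(1 : Matrix (Fin 2) (Fin 2) E)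
  ext i j
  fin_cases i <;> fin_cases j <;> simp [Matrix.mul_apply, Fin.sum_univ_two]
  · linear_combination h
  · ring
  · ring
  · linear_combination h

theorem tsl_wsl {a b : E} (h : a ^ 2 + b ^ 2 = -1) : tsl a b h * wsl = -(wsl * tsl a b h) := by
  apply Subtype.ext
  show (!![a, b; b, -a] : Matrix (Fin 2) (Fin 2) E) * !![0, 1; -1, 0] =
    -((!![0, 1; -1, 0] : Matrix (Fin 2) (Fin 2) E) * !![a, b; b, -a])
  ext i j
  fin_cases i <;> fin_cases j <;> simp [Matrix.mul_apply, Fin.sum_univ_two]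

theorem isPGroup_zpowers_of {G : Type*} [Group G] {x : G} (h : x ^ 2 ^ 2 = 1) : IsPGroup 2 (zpowers x) := by
  rintro ⟨_, n, rfl⟩
  refine ⟨2, Subtype.ext ?_⟩
  show (x ^ n) ^ 2 ^ 2 = 1
  rw [← zpow_natCast, zpow_comm, zpow_natCast, h, _root_.one_zpow]

theorem twoGp_of_sl [Fintype E] {r : ℕ} [Fact r.Prime] [CharP E r] (hr : r ≠ 2) (h3 : 3 < Fintype.card E)
    {Z : Subgroup (GL (Fin 2) E)} (hZ : ∀ x : SpecialLinearGroup (Fin 2) E, (x : GL (Fin 2) E) ∈ Z) :
    TwoGp r (Fintype.card E) Z := by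
  have hr' : r.Prime := Fact.out
  have h2 : (2 : E) ≠ 0 := by
    intro h
    have h3 : ((2 : ℕ) : E) = 0 := by exact_mod_cast h
    rw [CharP.cast_eq_zero_iff E r] at h3
    exact hr ((Nat.prime_dvd_prime_iff_eq hr' Nat.prime_two).1 h3)
  refine ⟨h3, ?_, ?_, ?_, ?_⟩
  · obtain ⟨n, -, hn⟩ := FiniteField.card E r
    exact ⟨n, hn⟩
  · have h4 : ((-1 : SpecialLinearGroup (Fin 2) E) : GL (Fin 2) E) = -1 := by
      apply Units.ext
      rfl
    rw [← h4]
    exact hZ _
  · rw [← ClassicalGeometry.PSL2Basic.card_SL2]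
    refine Nat.card_congr
      { toFun := fun g => ⟨((g : GL (Fin 2) E) : Matrix (Fin 2) (Fin 2) E), ?_⟩
        invFun := fun A => ⟨(A : GL (Fin 2) E), ⟨hZ A, ?_⟩⟩
        left_inv := fun _ => Subtype.ext (Units.ext rfl)
        right_inv := fun _ => Subtype.ext rfl }
    · have h4 := congrArg Units.val (MonoidHom.mem_ker.1 g.2.2)
      exact h4
    · show (A : GL (Fin 2) E) ∈ MonoidHom.ker _
      rw [MonoidHom.mem_ker]
      apply Units.ext
      exact A.2
  · obtain ⟨a, b, hab⟩ := CharP.sq_add_sq E r (-1)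
    set a' : E := (a : E)
    set b' : E := (b : E)
    have hab' : a' ^ 2 + b' ^ 2 = -1 := by
      rw [hab]; norm_num
    let ι : SpecialLinearGroup (Fin 2) E →* GL (Fin 2) E := SpecialLinearGroup.toGL
    have hw4 : (wsl : SpecialLinearGroup (Fin 2) E) ^ 2 ^ 2 = 1 := by
      rw [show 2 ^ 2 = 2 * 2 by norm_num, pow_mul, sq wsl, wsl_sq, neg_one_sq]
    have ht4 : (tsl a' b' hab') ^ 2 ^ 2 = 1 := by
      rw [show 2 ^ 2 = 2 * 2 by norm_num, pow_mul, sq (tsl a' b' hab'), tsl_sq, neg_one_sq]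
    have hne : ι (wsl) * ι (tsl a' b' hab') ≠ ι (tsl a' b' hab') * ι wsl := by
      rw [← map_mul, ← map_mul]
      intro h
      have h5 : wsl * tsl a' b' hab' = tsl a' b' hab' * wsl := by
        apply Subtype.ext
        exact congrArg Units.val h
      rw [tsl_wsl] at h5
      set u := wsl * tsl a' b' hab' with hu
      have h6 : (2 : E) • (u : Matrix (Fin 2) (Fin 2) E) = 0 := by
        have h7 : (u : Matrix (Fin 2) (Fin 2) E) = -(u : Matrix (Fin 2) (Fin 2) E) := congrArg Subtype.val h5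
        rw [two_smul]
        nth_rewrite 1 [h7]
        exact neg_add_cancel _
      have h7 := (smul_eq_zero.1 h6).resolve_left h2
      have h8 := u.2
      rw [h7, det_zero] at h8
      exact zero_ne_one h8
    have hwn : zpowers (ι (tsl a' b' hab')) ≤ normalizer ((zpowers (ι wsl) : Subgroup (GL (Fin 2) E)) : Set (GL (Fin 2) E)) := by
      rw [zpowers_le]
      rw [mem_normalizer_iff]
      have h5 : ι (tsl a' b' hab') * ι wsl * (ι (tsl a' b' hab'))⁻¹ = (ι wsl)⁻¹ := by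
        rw [← map_mul, ← map_inv, ← map_mul, ← map_inv, tsl_wsl]
        congr 1
        have h6 : (wsl : SpecialLinearGroup (Fin 2) E)⁻¹ = -wsl := by
          rw [inv_eq_iff_mul_eq_one, mul_neg, wsl_sq, neg_neg]
        rw [h6, ← neg_mul, mul_assoc, mul_inv_cancel, mul_one]
      have h6 : ∀ x, x ∈ zpowers (ι wsl) → ι (tsl a' b' hab') * x * (ι (tsl a' b' hab'))⁻¹ ∈ zpowers (ι wsl) := by
        rintro _ ⟨n, rfl⟩
        refine ⟨-n, ?_⟩
        show (ι wsl) ^ (-n) = ι (tsl a' b' hab') * (ι wsl) ^ n * (ι (tsl a' b' hab'))⁻¹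
        rw [← conj_zpow, h5, _root_.inv_zpow, _root_.zpow_neg]
      have h7 : (ι (tsl a' b' hab')) * (ι (tsl a' b' hab')) = -1 := by
        rw [← map_mul, tsl_sq]
        apply Units.ext
        rfl
      intro x
      constructor
      · exact h6 x
      · intro hx
        have h8 := h6 _ hx
        have h9 : ι (tsl a' b' hab') * (ι (tsl a' b' hab') * x * (ι (tsl a' b' hab'))⁻¹) * (ι (tsl a' b' hab'))⁻¹ = x := by
          have h10 : ι (tsl a' b' hab') * (ι (tsl a' b' hab') * x * (ι (tsl a' b' hab'))⁻¹) * (ι (tsl a' b' hab'))⁻¹ =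
            (ι (tsl a' b' hab') * ι (tsl a' b' hab')) * x * (ι (tsl a' b' hab') * ι (tsl a' b' hab'))⁻¹ := by group
          rw [h10, h7, neg_one_mul, inv_neg, inv_one, mul_neg_one, neg_neg]
        rwa [h9] at h8
    have hle : ∀ x : SpecialLinearGroup (Fin 2) E, ι x ∈ slPart Z := fun x => by
      refine ⟨hZ x, ?_⟩
      show ι x ∈ MonoidHom.ker _
      rw [MonoidHom.mem_ker]
      apply Units.ext
      exact x.2
    refine ⟨zpowers (ι (tsl a' b' hab')) ⊔ zpowers (ι wsl), ?_, ?_, ι wsl, ?_, ι (tsl a' b' hab'), ?_, hne⟩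
    · rw [sup_le_iff, zpowers_le, zpowers_le]
      exact ⟨hle _, hle _⟩
    · refine IsPGroup.to_sup_of_normal_right' (isPGroup_zpowers_of ?_) (isPGroup_zpowers_of ?_) hwn
      · rw [← map_pow, ht4, map_one]
      · rw [← map_pow, hw4, map_one]
    · exact (le_sup_right : zpowers (ι wsl) ≤ _) (mem_zpowers _)
    · exact (le_sup_left : zpowers (ι (tsl a' b' hab')) ≤ _) (mem_zpowers _)

end Cfsg.Agent.H513.KwTwo
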