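import Mathlib
import Cfsg.Prelude.Def_OddOrderLocal
import Cfsg.Agent.S0638
import Cfsg.Agent.S0112
import Cfsg.Agent.PLocal.CyclicIndexP
import Cfsg.Agent.Transfer.TausskyTwoGroup

/-!
# Automorphisms of order `p` of metacyclic `p`-groups (S4079)

The subgroup `K = Ω₂(L)` of a metacyclic `p`-group `L` without cyclic subgroup of index `p`, and the forward
direction.
-/

set_option autoImplicit false

namespace Cfsg.Agent.H513.MetaAut

open Subgroup
open scoped commutatorElement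

section Meta

variable {L : Type*} [Group L]

/-- Quotients of metacyclic groups are metacyclic. -/
theorem isMetacyclic_quotient (h : Cfsg.IsMetacyclic L) (U : Subgroup L) [U.Normal] :
    Cfsg.IsMetacyclic (L ⧸ U) := by
  obtain ⟨N, hN, hc, hq⟩ := h
  have hN' : (N.map (QuotientGroup.mk' U)).Normal := hN.map _ (QuotientGroup.mk'_surjective U)
  refine ⟨N.map (QuotientGroup.mk' U), hN', ?_, ?_⟩
  · exact isCyclic_of_surjective ((QuotientGroup.mk' U).subgroupMap N)
      (MonoidHom.subgroupMap_surjective _ _)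
  · refine isCyclic_of_surjective (QuotientGroup.map N (N.map (QuotientGroup.mk' U)) (QuotientGroup.mk' U)
      (Subgroup.le_comap_map _ _)) ?_
    intro y
    obtain ⟨x, rfl⟩ := QuotientGroup.mk_surjective y
    obtain ⟨z, rfl⟩ := QuotientGroup.mk_surjective x
    exact ⟨(z : L ⧸ N), rfl⟩

/-- The elements of order dividing `p` of a noncyclic metacyclic `p`-group, `p` odd. -/
theorem exists_omega [Finite L] {p : ℕ} [hp : Fact p.Prime] (hp2 : p ≠ 2) (hL : IsPGroup p L)
    (hm : Cfsg.IsMetacyclic L) (hnc : ¬ IsCyclic L) :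
    ∃ U : Subgroup L, (∀ x, x ∈ U ↔ x ^ p = 1) ∧ Nat.card U = p ^ 2 ∧ (∀ x ∈ U, ∀ y ∈ U, x * y = y * x) := by
  obtain ⟨⟨h1, h2⟩, h3⟩ := S0638.result hp2 hL hm hnc
  refine ⟨Cfsg.omegaOne p (⊤ : Subgroup L), fun x => ⟨fun hx => h2 x hx, fun hx => ?_⟩, h3, fun x hx y hy => ?_⟩
  · exact Subgroup.subset_closure ⟨Subgroup.mem_top x, hx⟩
  · exact congrArg Subtype.val (h1.is_comm.comm ⟨x, hx⟩ ⟨y, hy⟩)

theorem omega_normal {p : ℕ} (U : Subgroup L) (hU : ∀ x, x ∈ U ↔ x ^ p = 1) : U.Normal := by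
  refine ⟨fun n hn g => ?_⟩
  rw [hU] at hn ⊢
  rw [conj_pow, hn]; group

/-- The quotient by `Ω₁` is not cyclic. -/
theorem not_cyclic_quotient [Finite L] {p : ℕ} [hp : Fact p.Prime] (hL : IsPGroup p L)
    (U : Subgroup L) (hU : ∀ x, x ∈ U ↔ x ^ p = 1) (hUc : Nat.card U = p ^ 2) [U.Normal]
    (hnc : ∀ C : Subgroup L, IsCyclic C → C.index ≠ p) : ¬ IsCyclic (L ⧸ U) := by
  intro hcyc
  have hpp : p.Prime := hp.out
  have hcard := U.card_mul_index
  rw [hUc] at hcard
  by_cases hs : U.index = 1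
  · -- `L = U`
    rw [hs, mul_one] at hcard
    obtain ⟨C, hC⟩ := Sylow.exists_subgroup_card_pow_prime (G := L) p (n := 1) (by
      rw [← hcard]; exact pow_dvd_pow p (by norm_num))
    rw [pow_one] at hC
    refine hnc C (isCyclic_of_prime_card hC) ?_
    have h1 := C.card_mul_index
    rw [hC, ← hcard, pow_two] at h1
    exact Nat.eq_of_mul_eq_mul_left hpp.pos h1
  · obtain ⟨g, hg⟩ := hcyc.exists_ofOrder_eq_natCard
    obtain ⟨h, rfl⟩ := QuotientGroup.mk_surjective g
    have hg' : orderOf (h : L ⧸ U) = U.index := hg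
    -- the order of `h`
    have hdvd : U.index ∣ orderOf h := by
      rw [← hg']; exact orderOf_map_dvd (QuotientGroup.mk' U) h
    obtain ⟨j, hj⟩ := hL.exists_card_eq
    have hUi : ∃ i, U.index = p ^ i := by
      have h1 : U.index ∣ p ^ j := by rw [← hj]; exact U.index_dvd_card
      obtain ⟨i, -, hi⟩ := (Nat.dvd_prime_pow hpp).mp h1
      exact ⟨i, hi⟩
    obtain ⟨i, hi⟩ := hUi
    have hi0 : i ≠ 0 := by rintro rfl; exact hs (by rw [hi, pow_zero])
    have hpow : h ^ U.index ∈ U := by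
      rw [← QuotientGroup.eq_one_iff, QuotientGroup.mk_pow, ← hg', pow_orderOf_eq_one]
    have hne : h ^ U.index ≠ 1 := by
      intro h1
      -- then `h ^ (index / p)` lies in `U`
      obtain ⟨i', rfl⟩ := Nat.exists_eq_succ_of_ne_zero hi0
      have h2 : h ^ (p ^ i') ∈ U := by
        rw [hU, ← pow_mul, ← pow_succ]
        rw [hi] at h1; exact h1
      rw [← QuotientGroup.eq_one_iff, QuotientGroup.mk_pow] at h2
      have h3 := orderOf_dvd_of_pow_eq_one h2
      rw [hg', hi] at h3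
      have h4 := (Nat.pow_dvd_pow_iff_le_right hpp.one_lt).mp h3
      omega
    have hord : orderOf h = U.index * p := by
      have h1 : (h ^ U.index) ^ p = 1 := (hU _).mp hpow
      have h2 : orderOf (h ^ U.index) = p := orderOf_eq_prime h1 hne
      have h3 : orderOf (h ^ U.index) = orderOf h / U.index := by
        rw [orderOf_pow, Nat.gcd_eq_right hdvd]
      rw [h2] at h3
      rw [h3, Nat.mul_div_cancel' hdvd]
    refine hnc (zpowers h) inferInstance ?_
    have h1 := (zpowers h).card_mul_index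
    rw [Nat.card_zpowers, hord, ← hcard] at h1
    have h2 : 0 < U.index * p := Nat.mul_pos (Nat.pos_of_ne_zero (by rw [hi]; exact pow_ne_zero _ hpp.ne_zero)) hpp.pos
    have h3 : U.index * p * (zpowers h).index = U.index * p * p := by
      rw [h1]; ring
    exact Nat.eq_of_mul_eq_mul_left h2 h3

end Meta

/-- The data on `U = Ω₁(L)` and `K = Ω₂(L)`. -/
structure Data (p : ℕ) (L : Type*) [Group L] where
  U : Subgroup L
  K : Subgroup L
  memU : ∀ x, x ∈ U ↔ x ^ p = 1
  memK : ∀ x, x ∈ K ↔ x ^ p ∈ U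
  cardU : Nat.card U = p ^ 2
  cardK : Nat.card K = p ^ 4
  commU : ∀ x ∈ U, ∀ y ∈ U, x * y = y * x
  /-- the `p`-power map is a homomorphism on `K` -/
  mulK : ∀ x ∈ K, ∀ y ∈ K, (x * y) ^ p = x ^ p * y ^ p
  /-- it is onto `U` -/
  surjK : ∀ w ∈ U, ∃ x ∈ K, x ^ p = w
  /-- `U` centralizes `K` -/
  commUK : ∀ w ∈ U, ∀ x ∈ K, w * x = x * w

theorem exists_data {L : Type*} [Group L] [Finite L] {p : ℕ} [hp : Fact p.Prime] (hp2 : p ≠ 2)
    (hL : IsPGroup p L) (hm : Cfsg.IsMetacyclic L) (hnc : ∀ C : Subgroup L, IsCyclic C → C.index ≠ p)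
    (hL1 : Nat.card L ≠ 1) : Nonempty (Data p L) := by
  have hpp : p.Prime := hp.out
  have hncL : ¬ IsCyclic L := by
    intro hc
    obtain ⟨j, hj⟩ := hL.exists_card_eq
    have hj0 : j ≠ 0 := by rintro rfl; exact hL1 (by rw [hj, pow_zero])
    obtain ⟨i, rfl⟩ := Nat.exists_eq_succ_of_ne_zero hj0
    obtain ⟨C, hC⟩ := Sylow.exists_subgroup_card_pow_prime (G := L) p (n := i) (by
      rw [hj]; exact pow_dvd_pow p (by omega))
    refine hnc C inferInstance ?_
    have h1 := C.card_mul_index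
    rw [hC, hj, Nat.succ_eq_add_one, pow_succ] at h1
    exact Nat.eq_of_mul_eq_mul_left (pow_pos hpp.pos i) h1
  obtain ⟨U, hU, hUc, hUab⟩ := exists_omega hp2 hL hm hncL
  have hUn : U.Normal := omega_normal U hU
  have hq := not_cyclic_quotient hL U hU hUc hnc
  obtain ⟨V, hV, hVc, hVab⟩ := exists_omega hp2 (hL.to_quotient U) (isMetacyclic_quotient hm U) hq
  -- `K`
  let K : Subgroup L := V.comap (QuotientGroup.mk' U)
  have hK : ∀ x, x ∈ K ↔ x ^ p ∈ U := by
    intro x
    rw [Subgroup.mem_comap, hV, ← map_pow, QuotientGroup.mk'_apply, QuotientGroup.eq_one_iff]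
  have hUK : U ≤ K := by
    intro x hx
    rw [hK, (hU x).mp hx]; exact U.one_mem
  have hKc : Nat.card K = p ^ 4 := by
    have h1 := Subgroup.card_mul_index (U.subgroupOf K)
    have h2 : Nat.card (U.subgroupOf K) = p ^ 2 := by
      rw [← hUc]; exact Nat.card_congr (Subgroup.subgroupOfEquivOfLe hUK).toEquiv
    have h3 : (U.subgroupOf K).index = p ^ 2 := by
      rw [← Subgroup.relIndex, ← hVc]
      have h4 : U = (QuotientGroup.mk' U).ker := (QuotientGroup.ker_mk' U).symm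
      have h5 := Subgroup.relIndex_ker (f := QuotientGroup.mk' U) (K := K)
      rw [← h4] at h5
      rw [h5, Subgroup.map_comap_eq_self_of_surjective (QuotientGroup.mk'_surjective U)]
    rw [h2, h3] at h1
    rw [← h1]; ring
  -- commutators
  obtain ⟨N, hN, hNcyc, hNq⟩ := hm
  have hcN : ∀ x y : L, ⁅x, y⁆ ∈ N := by
    intro x y
    rw [← QuotientGroup.eq_one_iff, ← QuotientGroup.mk'_apply, map_commutatorElement]
    let _ : CommGroup (L ⧸ N) := IsCyclic.commGroup
    rw [commutatorElement_eq_one_iff_mul_comm]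
    exact mul_comm _ _
  have hcU : ∀ x ∈ K, ∀ y ∈ K, ⁅x, y⁆ ∈ U := by
    intro x hx y hy
    rw [← QuotientGroup.eq_one_iff, ← QuotientGroup.mk'_apply, map_commutatorElement,
      commutatorElement_eq_one_iff_mul_comm]
    exact hVab _ hx _ hy
  -- `U ⊓ N` is central
  have hcen : ∀ c ∈ U ⊓ N, ∀ x : L, c * x = x * c := by
    have hnorm : (U ⊓ N).Normal := inferInstance
    have hcardle : Nat.card ↥(U ⊓ N) = p ∨ U ⊓ N = ⊥ := by
      by_cases hb : U ⊓ N = ⊥
      · exact Or.inr hb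
      left
      have hcy : IsCyclic ↥(U ⊓ N) :=
        isCyclic_of_injective (Subgroup.inclusion (inf_le_right : U ⊓ N ≤ N)) (Subgroup.inclusion_injective _)
      obtain ⟨g, hg⟩ := hcy.exists_ofOrder_eq_natCard
      rw [← hg]
      refine orderOf_eq_prime (Subtype.ext ((hU _).mp g.2.1)) ?_
      rintro rfl
      rw [orderOf_one] at hg
      exact hb (Subgroup.card_eq_one.mp hg.symm)
    rcases hcardle with h | h
    · have h1 : U ⊓ N ≤ Subgroup.center L := by
        have hne : U ⊓ N ≠ ⊥ := by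
          intro hb
          rw [hb, Subgroup.card_bot] at h
          exact hpp.one_lt.ne h
        obtain ⟨Z, hZN, hZc, hZcard⟩ :=
          Transfer.TausskyTwoGroup.exists_central_card_prime_le hL (U ⊓ N) hne
        have h2 : Z = U ⊓ N := Subgroup.eq_of_le_of_card_ge hZN (by rw [h, hZcard])
        rw [← h2]; exact hZc
      intro c hc x
      exact (Subgroup.mem_center_iff.mp (h1 hc) x).symm
    · intro c hc x
      rw [h, Subgroup.mem_bot] at hc
      rw [hc, one_mul, mul_one]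
  have hchoose : p ∣ p.choose 2 := hpp.dvd_choose_self (by norm_num) (by
    have := hpp.two_le
    omega)
  have hcp : ∀ c ∈ U, ∀ k, p ∣ k → c ^ k = 1 := by
    rintro c hc k ⟨m, rfl⟩
    rw [pow_mul, (hU c).mp hc, one_pow]
  have hmulK : ∀ x ∈ K, ∀ y ∈ K, (x * y) ^ p = x ^ p * y ^ p := by
    intro x hx y hy
    have h1 : ⁅y⁻¹, x⁻¹⁆ ∈ U ⊓ N := ⟨hcU _ (K.inv_mem hy) _ (K.inv_mem hx), hcN _ _⟩
    have h2 : y * x = x * y * ⁅y⁻¹, x⁻¹⁆ := by
      rw [commutatorElement_def]; group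
    have h3 := PLocal.CyclicIndexP.mul_pow_of_commute h2 (hcen _ h1 x) (hcen _ h1 y) p
    rw [h3, hcp _ h1.1 _ hchoose, mul_one]
  have hcommUK' : ∀ x ∈ K, ∀ y ∈ K, x ^ p * y = y * x ^ p := by
    intro x hx y hy
    -- `y⁻¹ x y = x c`
    have h1 : ⁅x⁻¹, y⁻¹⁆ ∈ U ⊓ N := ⟨hcU _ (K.inv_mem hx) _ (K.inv_mem hy), hcN _ _⟩
    have h2 : y⁻¹ * x * y = x * ⁅x⁻¹, y⁻¹⁆ := by
      rw [commutatorElement_def]; group
    have h3 : y⁻¹ * x ^ p * y = x ^ p := by
      have h4 : y⁻¹ * x ^ p * y = (y⁻¹ * x * y) ^ p := by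
        have := conj_pow (i := p) (a := y⁻¹) (b := x)
        rw [inv_inv] at this
        exact this.symm
      have hc : Commute x ⁅x⁻¹, y⁻¹⁆ := (hcen _ h1 x).symm
      rw [h4, h2, hc.mul_pow, hcp _ h1.1 p dvd_rfl, mul_one]
    calc x ^ p * y = y * (y⁻¹ * x ^ p * y) := by group
      _ = y * x ^ p := by rw [h3]
  have hsurj : ∀ w ∈ U, ∃ x ∈ K, x ^ p = w := by
    let f : K →* U :=
      { toFun := fun x => ⟨(x : L) ^ p, (hK _).mp x.2⟩
        map_one' := Subtype.ext (one_pow p)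
        map_mul' := fun x y => Subtype.ext (hmulK x x.2 y y.2) }
    have hf : ∀ x : K, ((f x : U) : L) = (x : L) ^ p := fun x => rfl
    have hker : f.ker = U.subgroupOf K := by
      ext x
      rw [MonoidHom.mem_ker, Subgroup.mem_subgroupOf, hU, ← hf]
      constructor
      · intro h; rw [h]; rfl
      · intro h; exact Subtype.ext h
    have hkc : Nat.card f.ker = p ^ 2 := by
      rw [hker, ← hUc]; exact Nat.card_congr (Subgroup.subgroupOfEquivOfLe hUK).toEquiv
    have hrc : Nat.card f.range = p ^ 2 := by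
      have h1 := f.ker.card_mul_index
      rw [Subgroup.index_ker, hkc, hKc] at h1
      have h2 : p ^ 2 * Nat.card f.range = p ^ 2 * p ^ 2 := by rw [h1]; ring
      exact Nat.eq_of_mul_eq_mul_left (pow_pos hpp.pos 2) h2
    have hrt : f.range = ⊤ := by
      rw [← Subgroup.card_eq_iff_eq_top, hrc, hUc]
    intro w hw
    have h1 : (⟨w, hw⟩ : U) ∈ f.range := by rw [hrt]; exact Subgroup.mem_top _
    obtain ⟨x, hx⟩ := h1
    exact ⟨x, x.2, congrArg Subtype.val hx⟩
  refine ⟨⟨U, K, hU, hK, hUc, hKc, hUab, hmulK, hsurj, fun w hw x hx => ?_⟩⟩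
  obtain ⟨y, hy, rfl⟩ := hsurj w hw
  exact hcommUK' y hy x hx

end Cfsg.Agent.H513.MetaAut
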