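import Mathlib
import Cfsg.Agent.H513.MetaAutA

/-!
# Automorphisms of order `p` of metacyclic `p`-groups (S4079): an automorphism moving `Ω₁`
-/

set_option autoImplicit false

namespace Cfsg.Agent.H513.MetaAut

open Subgroup
open scoped commutatorElement

variable {L : Type*} [Group L] [Finite L] {p : ℕ} [hp : Fact p.Prime]

/-- A `p`-element acting on a group of order `p ^ n`, `n ≥ 1`: the number of fixed points is divisible by `p`. -/
theorem dvd_card_fixed {R : Type*} [Finite R] (σ : R → R) (hσ : σ^[p] = id) (hR : p ∣ Nat.card R) :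
    p ∣ Nat.card {x : R // σ x = x} := by
  classical
  have := Fintype.ofFinite R
  have h1 := Equiv.Perm.card_fixedPoints_modEq (α := R) (f := σ) (p := p) (n := 1) (by
    rw [pow_one]
    exact hσ)
  rw [← Nat.card_eq_fintype_card, ← Nat.card_eq_fintype_card] at h1
  have h2 : p ∣ Nat.card ↑(Function.fixedPoints σ) := (Nat.modEq_zero_iff_dvd.mp (h1.symm.trans
    (Nat.modEq_zero_iff_dvd.mpr hR)))
  exact h2

variable (a : MulAut L) (ha : a ^ p = 1)

/-- The action on `U`. -/
theorem fix_U (U : Subgroup L) (hU : ∀ x, x ∈ U ↔ x ^ p = 1) (hUc : Nat.card U = p ^ 2)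
    (hUab : ∀ x ∈ U, ∀ y ∈ U, x * y = y * x) (ha : a ^ p = 1) (v : L) (hv : v ∈ U) (hav : a v ≠ v) :
    (∀ w ∈ U, a (w⁻¹ * a w) = w⁻¹ * a w) ∧
    (∀ w ∈ U, a w = w → w ∈ zpowers (v⁻¹ * a v)) := by
  have hpp : p.Prime := hp.out
  have haU : ∀ x ∈ U, a x ∈ U := by
    intro x hx
    rw [hU] at hx ⊢
    rw [← map_pow, hx, map_one]
  let aU : U → U := fun x => ⟨a x, haU x x.2⟩
  have haUk : ∀ (k : ℕ) (x : U), ((aU^[k] x : U) : L) = (a ^ k) x := by
    intro k
    induction k with
    | zero => intro x; rfl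
    | succ k ih =>
      intro x
      rw [Function.iterate_succ_apply', pow_succ']
      change a ((aU^[k] x : U) : L) = _
      rw [ih]; rfl
  have haUp : aU^[p] = id := by
    funext x
    apply Subtype.ext
    rw [haUk, ha]; rfl
  let cU : CommGroup U := { (inferInstance : Group U) with
    mul_comm := fun x y => Subtype.ext (hUab x x.2 y y.2) }
  let f : U →* U :=
    { toFun := fun w => w⁻¹ * aU w
      map_one' := by
        apply Subtype.ext
        change (1 : L)⁻¹ * a 1 = 1
        simp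
      map_mul' := fun x y => by
        have h1 : aU (x * y) = aU x * aU y := Subtype.ext (map_mul a _ _)
        rw [h1, mul_inv]
        exact mul_mul_mul_comm _ _ _ _ }
  have hf : ∀ w : U, f w = w⁻¹ * aU w := fun w => rfl
  have hmemker : ∀ w : U, w ∈ f.ker ↔ aU w = w := by
    intro w
    rw [MonoidHom.mem_ker, hf, inv_mul_eq_one, eq_comm]
  have hpU : p ∣ Nat.card U := by rw [hUc]; exact dvd_pow_self p two_ne_zero
  have hkp : p ∣ Nat.card f.ker := by
    have h1 := dvd_card_fixed aU haUp hpU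
    have h2 : Nat.card f.ker = Nat.card {x : U // aU x = x} :=
      Nat.card_congr (Equiv.subtypeEquivRight hmemker)
    rw [h2]; exact h1
  have hmul : Nat.card f.ker * Nat.card f.range = p ^ 2 := by
    have h1 := f.ker.card_mul_index
    rw [Subgroup.index_ker, hUc] at h1
    exact h1
  have hker_ne : Nat.card f.ker ≠ p ^ 2 := by
    intro h
    have h1 : f.ker = ⊤ := by rw [← Subgroup.card_eq_iff_eq_top, h, hUc]
    have h2 : (⟨v, hv⟩ : U) ∈ f.ker := by rw [h1]; exact Subgroup.mem_top _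
    rw [hmemker] at h2
    exact hav (congrArg Subtype.val h2)
  have hkc : Nat.card f.ker = p := by
    have h1 : Nat.card f.ker ∣ p ^ 2 := ⟨_, hmul.symm⟩
    obtain ⟨i, hi, hi'⟩ := (Nat.dvd_prime_pow hpp).mp h1
    interval_cases i
    · rw [hi', pow_zero, Nat.dvd_one] at hkp
      exact absurd hkp hpp.one_lt.ne'
    · rw [hi', pow_one]
    · exact absurd hi' hker_ne
  have hrc : Nat.card f.range = p := by
    rw [hkc, pow_two] at hmul
    exact Nat.eq_of_mul_eq_mul_left hpp.pos hmul
  -- the range is fixed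
  have hafr : ∀ w : U, aU (f w) = f (aU w) := by
    intro w
    apply Subtype.ext
    change a ((w : L)⁻¹ * a w) = (a w)⁻¹ * a (a w)
    rw [map_mul, map_inv]
  have hrfix : f.range ≤ f.ker := by
    let aR : f.range → f.range := fun x => ⟨aU x, by
      obtain ⟨w, hw⟩ := x.2
      exact ⟨aU w, by rw [← hafr, hw]⟩⟩
    have haRk : ∀ (k : ℕ) (x : f.range), ((aR^[k] x : f.range) : U) = aU^[k] x := by
      intro k
      induction k with
      | zero => intro x; rfl
      | succ k ih =>
        intro x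
        rw [Function.iterate_succ_apply', Function.iterate_succ_apply', ← ih]
    have haRp : aR^[p] = id := by
      funext x
      apply Subtype.ext
      rw [haRk, haUp]; rfl
    have h1 := dvd_card_fixed aR haRp (by rw [hrc])
    have h2 : Nat.card ↥(f.ker ⊓ f.range) = Nat.card {x : f.range // aR x = x} := by
      refine Nat.card_congr
        { toFun := fun x => ⟨⟨x.1, x.2.2⟩, Subtype.ext ((hmemker _).mp x.2.1)⟩
          invFun := fun x => ⟨x.1.1, ⟨(hmemker _).mpr (congrArg Subtype.val x.2), x.1.2⟩⟩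
          left_inv := fun x => rfl
          right_inv := fun x => rfl }
    rw [← h2] at h1
    have h3 : f.ker ⊓ f.range = f.range := by
      refine Subgroup.eq_of_le_of_card_ge inf_le_right ?_
      rw [hrc]
      exact Nat.le_of_dvd Nat.card_pos h1
    rw [← h3]; exact inf_le_left
  refine ⟨fun w hw => ?_, fun w hw hw' => ?_⟩
  · have h1 : f ⟨w, hw⟩ ∈ f.ker := hrfix ⟨_, rfl⟩
    rw [hmemker] at h1
    exact congrArg Subtype.val h1
  · have h1 : f ⟨v, hv⟩ ∈ f.ker := hrfix ⟨_, rfl⟩
    have h2 : (⟨w, hw⟩ : U) ∈ f.ker := (hmemker _).mpr (Subtype.ext hw')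
    have h3 : (⟨f ⟨v, hv⟩, h1⟩ : f.ker) ≠ 1 := by
      intro h
      have h4 : f ⟨v, hv⟩ = 1 := congrArg Subtype.val h
      have h5 : (⟨v, hv⟩ : U) ∈ f.ker := h4
      rw [hmemker] at h5
      exact hav (congrArg Subtype.val h5)
    have h4 : (⟨⟨w, hw⟩, h2⟩ : f.ker) ∈ zpowers (⟨f ⟨v, hv⟩, h1⟩ : f.ker) := mem_zpowers_of_prime_card hkc h3
    obtain ⟨k, hk⟩ := Subgroup.mem_zpowers_iff.mp h4
    refine Subgroup.mem_zpowers_iff.mpr ⟨k, ?_⟩
    have h5 := congrArg (fun x : f.ker => ((x : U) : L)) hk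
    have h6 : ((f ⟨v, hv⟩ : U) : L) = v⁻¹ * a v := rfl
    rw [← h6]
    simpa using h5

/-- **The key computation.** -/
theorem key (D : Data p L) (hp2 : p ≠ 2) (ha : a ^ p = 1) (v : L) (hv : v ∈ D.U) (hav : a v ≠ v) :
    p = 3 ∧ ∀ g : L, IsPGroup p (zpowers g) → a g = g → g ∈ zpowers (v⁻¹ * a v) := by
  have hpp : p.Prime := hp.out
  obtain ⟨hfix, hfix'⟩ := fix_U a D.U D.memU D.cardU D.commU ha v hv hav
  have haU : ∀ x ∈ D.U, a x ∈ D.U := by
    intro x hx
    rw [D.memU] at hx ⊢
    rw [← map_pow, hx, map_one]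
  have haK : ∀ x ∈ D.K, a x ∈ D.K := by
    intro x hx
    rw [D.memK] at hx ⊢
    rw [← map_pow]; exact haU _ hx
  set u := v⁻¹ * a v with hu
  have huU : u ∈ D.U := D.U.mul_mem (D.U.inv_mem hv) (haU v hv)
  have hu1 : u ≠ 1 := by
    intro h
    rw [hu, inv_mul_eq_one] at h
    exact hav h.symm
  have hau : a u = u := hfix v hv
  obtain ⟨y, hyK, hyv⟩ := D.surjK v hv
  set x := y⁻¹ * a y with hx
  have hxK : x ∈ D.K := D.K.mul_mem (D.K.inv_mem hyK) (haK y hyK)
  have hay : a y = y * x := by rw [hx]; group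
  have hxu : x ^ p = u := by
    rw [hx, D.mulK _ (D.K.inv_mem hyK) _ (haK y hyK), inv_pow, ← map_pow, hyv]
  set z := x⁻¹ * a x with hz
  have hzK : z ∈ D.K := D.K.mul_mem (D.K.inv_mem hxK) (haK x hxK)
  have hax : a x = x * z := by rw [hz]; group
  have hzU : z ∈ D.U := by
    rw [D.memU, hz, D.mulK _ (D.K.inv_mem hxK) _ (haK x hxK), inv_pow, ← map_pow, hxu, hau, inv_mul_cancel]
  set t := z⁻¹ * a z with ht
  have htU : t ∈ D.U := D.U.mul_mem (D.U.inv_mem hzU) (haU z hzU)
  have haz : a z = z * t := by rw [ht]; group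
  have hat : a t = t := hfix z hzU
  have hzx : Commute z x := D.commUK z hzU x hxK
  have hzt : Commute z t := D.commU z hzU t htU
  have htx : Commute t x := D.commUK t htU x hxK
  -- iterates
  have hz_it : ∀ k : ℕ, (a ^ k) z = z * t ^ k := by
    intro k
    induction k with
    | zero => simp
    | succ k ih =>
      rw [pow_succ', MulAut.mul_apply, ih, map_mul, map_pow, haz, hat, pow_succ']
      group
  have hy_it : ∀ k : ℕ, (a ^ k) y = y * x ^ k * z ^ (k.choose 2) * t ^ (k.choose 3) := by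
    intro k
    induction k with
    | zero => simp
    | succ k ih =>
      rw [pow_succ', MulAut.mul_apply, ih, map_mul, map_mul, map_mul, map_pow, map_pow, map_pow, hay, hax, haz,
        hat, (hzx.symm).mul_pow, hzt.mul_pow]
      have h1 : (k + 1).choose 2 = k + k.choose 2 := by
        rw [Nat.choose_succ_succ' k 1, Nat.choose_one_right]
      have h2 : (k + 1).choose 3 = k.choose 2 + k.choose 3 := Nat.choose_succ_succ' k 2
      have e1 : x ^ (k + 1) = x * x ^ k := pow_succ' x k
      have e2 : z ^ (k + k.choose 2) = z ^ k * z ^ (k.choose 2) := pow_add z k _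
      have e3 : t ^ (k.choose 2 + k.choose 3) = t ^ (k.choose 2) * t ^ (k.choose 3) := pow_add t _ _
      rw [h1, h2, e1, e2, e3]
      simp only [mul_assoc]
  have hcp : ∀ c ∈ D.U, ∀ k, p ∣ k → c ^ k = 1 := by
    rintro c hc k ⟨m, rfl⟩
    rw [pow_mul, (D.memU c).mp hc, one_pow]
  have h2p : p ∣ p.choose 2 := hpp.dvd_choose_self (by norm_num) (by
    have := hpp.two_le
    omega)
  have hmain : u * t ^ (p.choose 3) = 1 := by
    have h1 := hy_it p
    rw [ha, hxu, hcp z hzU _ h2p, mul_one, MulAut.one_apply, mul_assoc] at h1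
    have h2 : y * 1 = y * (u * t ^ (p.choose 3)) := by rw [mul_one]; exact h1
    exact (mul_left_cancel h2).symm
  have hp3 : p = 3 := by
    by_contra hne
    have h3p : p ∣ p.choose 3 := hpp.dvd_choose_self (by norm_num) (by
      have := hpp.two_le
      omega)
    rw [hcp t htU _ h3p, mul_one] at hmain
    exact hu1 hmain
  have ht1 : t ≠ 1 := by
    intro h
    rw [h, one_pow, mul_one] at hmain
    exact hu1 hmain
  have hzfix : a z ≠ z := by
    intro h
    apply ht1
    rw [ht, h, inv_mul_cancel]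
  refine ⟨hp3, fun g hgp hag => ?_⟩
  by_cases hg1 : g = 1
  · rw [hg1]; exact Subgroup.one_mem _
  obtain ⟨j, hj⟩ : ∃ j, orderOf g = p ^ j := by
    obtain ⟨j, hj⟩ := IsPGroup.iff_card.mp hgp
    exact ⟨j, by rw [← Nat.card_zpowers, hj]⟩
  have hj0 : j ≠ 0 := by
    rintro rfl
    rw [pow_zero, orderOf_eq_one_iff] at hj
    exact hg1 hj
  by_cases hj1 : j = 1
  · subst hj1
    rw [pow_one] at hj
    refine hfix' g ?_ hag
    rw [D.memU, ← hj, pow_orderOf_eq_one]
  · exfalso
    obtain ⟨i, rfl⟩ : ∃ i, j = i + 2 := ⟨j - 2, by omega⟩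
    set g' := g ^ (p ^ i) with hg'
    have hag' : a g' = g' := by rw [hg', map_pow, hag]
    have hg'o : orderOf g' = p ^ 2 := by
      rw [hg', orderOf_pow, hj, Nat.gcd_eq_right (pow_dvd_pow p (by omega)), pow_add,
        Nat.mul_div_cancel_left _ (pow_pos hpp.pos i)]
    have hg'pU : g' ^ p ∈ D.U := by
      rw [D.memU, ← pow_mul, ← pow_two, ← hg'o, pow_orderOf_eq_one]
    have hg'K : g' ∈ D.K := (D.memK _).mpr hg'pU
    have hg'p1 : g' ^ p ≠ 1 := by
      intro h
      have h1 := orderOf_dvd_of_pow_eq_one h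
      rw [hg'o] at h1
      have h2 := Nat.le_of_dvd hpp.pos h1
      have h3 := hpp.one_lt
      nlinarith
    have hmem := hfix' (g' ^ p) hg'pU (by rw [map_pow, hag'])
    obtain ⟨k, hk⟩ := Subgroup.mem_zpowers_iff.mp hmem
    -- `w = x ^ (-k) * g'`
    set w := (x ^ k)⁻¹ * g' with hw
    have hxkK : x ^ k ∈ D.K := D.K.zpow_mem hxK k
    have hwU : w ∈ D.U := by
      rw [D.memU, hw, D.mulK _ (D.K.inv_mem hxkK) _ hg'K, inv_pow]
      have h1 : (x ^ k) ^ p = g' ^ p := by
        rw [← hk, ← hxu, ← zpow_natCast, ← zpow_natCast, ← zpow_mul, ← zpow_mul, mul_comm]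
      rw [h1, inv_mul_cancel]
    have hg'w : g' = x ^ k * w := by rw [hw]; group
    have haw : a w = w * (w⁻¹ * a w) := by group
    have hfw := hfix w hwU
    have h1 : z ^ k * (w⁻¹ * a w) = 1 := by
      have h2 : a g' = x ^ k * z ^ k * (w * (w⁻¹ * a w)) := by
        conv_lhs => rw [hg'w, map_mul, map_zpow, hax, (hzx.symm).mul_zpow, haw]
      rw [hag', hg'w] at h2
      have hzw : Commute (z ^ k) w := (show Commute z w from D.commU z hzU w hwU).zpow_left k
      have h3 : x ^ k * w * 1 = x ^ k * w * (z ^ k * (w⁻¹ * a w)) := by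
        rw [mul_one]
        calc x ^ k * w = x ^ k * z ^ k * (w * (w⁻¹ * a w)) := h2
          _ = x ^ k * (z ^ k * w) * (w⁻¹ * a w) := by group
          _ = x ^ k * (w * z ^ k) * (w⁻¹ * a w) := by rw [hzw.eq]
          _ = x ^ k * w * (z ^ k * (w⁻¹ * a w)) := by group
      exact (mul_left_cancel h3).symm
    have hzk : a (z ^ k) = z ^ k := by
      have h2 : z ^ k = (w⁻¹ * a w)⁻¹ := eq_inv_of_mul_eq_one_left h1
      rw [h2, map_inv, hfw]
    -- `k` is prime to `p`
    have hkp : ¬ (p : ℤ) ∣ k := by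
      rintro ⟨m, rfl⟩
      apply hg'p1
      rw [← hk, zpow_mul, zpow_natCast, (D.memU u).mp huU, one_zpow]
    apply hzfix
    have hcop : IsCoprime (p : ℤ) k :=
      (Prime.coprime_iff_not_dvd (Nat.prime_iff_prime_int.mp hpp)).mpr hkp
    obtain ⟨r, s, hrs⟩ := hcop
    have hz' : z = (z ^ k) ^ s := by
      calc z = z ^ (1 : ℤ) := (zpow_one z).symm
        _ = z ^ (r * p + s * k) := by rw [hrs]
        _ = (z ^ k) ^ s := by
          rw [zpow_add, mul_comm r, zpow_mul, zpow_natCast, (D.memU z).mp hzU, one_zpow, one_mul,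
            mul_comm s, zpow_mul]
    rw [hz', map_zpow, hzk]

end Cfsg.Agent.H513.MetaAut
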