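import Mathlib

/-!
# Linear algebra for groups with three automorphism orbits (S4081)

Let `T` be an operator of prime order `q` on a nonzero space over `ZMod p`.  If the semilinear-like
operators `B` (`B ∘ T = T ^ i ∘ B`) are transitive on the nonzero vectors and realize all `i` prime to `q`
then `p` is a primitive root modulo `q`.
-/

set_option autoImplicit false

namespace Cfsg.Agent.H513.ThreeOrb

open Polynomial

variable {F V : Type*} [Field F] [AddCommGroup V] [Module F V]

theorem aeval_conj (T : Module.End F V) (i : ℕ) (B : V ≃ₗ[F] V)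
    (hB : ∀ v, B (T v) = (T ^ i) (B v)) (g : F[X]) (v : V) :
    B (aeval T g v) = aeval (T ^ i) g (B v) := by
  induction g using Polynomial.induction_on' generalizing v with
  | add g h hg hh => simp [hg, hh]
  | monomial n a =>
    simp only [aeval_monomial]
    have h1 : ∀ (n : ℕ) (v : V), B ((T ^ n) v) = ((T ^ i) ^ n) (B v) := by
      intro n
      induction n with
      | zero => intro v; simp
      | succ n ih => intro v; rw [pow_succ, Module.End.mul_apply, ih, hB, pow_succ, Module.End.mul_apply]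
    rw [Module.algebraMap_end_eq_smul_id]
    simp [h1]

/-- The annihilator of a vector. -/
def ann (T : Module.End F V) (v : V) : Ideal F[X] where
  carrier := {g | aeval T g v = 0}
  add_mem' := fun {a b} ha hb => by
    simp only [Set.mem_ofPred_eq] at ha hb ⊢
    rw [map_add, LinearMap.add_apply, ha, hb, add_zero]
  zero_mem' := by simp
  smul_mem' := fun c x hx => by
    simp only [Set.mem_ofPred_eq, smul_eq_mul] at hx ⊢
    rw [map_mul, Module.End.mul_apply, hx, map_zero]

theorem mem_ann {T : Module.End F V} {v : V} {g : F[X]} : g ∈ ann T v ↔ aeval T g v = 0 := Iff.rfl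

theorem ann_ne_top {T : Module.End F V} {v : V} (hv : v ≠ 0) : ann T v ≠ ⊤ := by
  rw [Ne, Ideal.eq_top_iff_one, mem_ann]
  simpa using hv

theorem aeval_pow_expand (T : Module.End F V) (i : ℕ) (g : F[X]) :
    aeval (T ^ i) g = aeval T (expand F i g) := by
  rw [expand_aeval]

/-- If one annihilator is prime then all are. -/
theorem ann_prime {q : ℕ} (hq : q.Prime) (T : Module.End F V) (hTq : T ^ q = 1)
    (i : ℕ) (hi : ¬ q ∣ i) (B : V ≃ₗ[F] V)
    (hB : ∀ v, B (T v) = (T ^ i) (B v)) (v : V) (hv : (ann T v).IsPrime) :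
    (ann T (B v)).IsPrime := by
  have hBv : B v ≠ 0 := by
    intro h
    have : v = 0 := by simpa using h
    subst this
    apply hv.ne_top
    rw [Ideal.eq_top_iff_one, mem_ann]
    simp
  obtain ⟨j, hj⟩ : ∃ j, i * j ≡ 1 [MOD q] := by
    obtain ⟨j, -, hj⟩ := Nat.exists_mul_mod_eq_one_of_coprime
      ((Nat.Prime.coprime_iff_not_dvd hq).mpr hi).symm hq.one_lt
    exact ⟨j, by rw [Nat.ModEq, hj, Nat.mod_eq_of_lt hq.one_lt]⟩
  have hTj : (T ^ i) ^ j = T := by
    rw [← pow_mul]
    have h1 : T ^ (i * j) = T ^ 1 := by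
      rw [← Nat.div_add_mod (i * j) q, hj, Nat.mod_eq_of_lt hq.one_lt, pow_add, pow_mul, hTq, one_pow, one_mul]
    rw [h1, pow_one]
  -- transfer
  have key : ∀ g : F[X], g ∈ ann T (B v) ↔ expand F j g ∈ ann T v := by
    intro g
    rw [mem_ann, mem_ann]
    have h1 : B (aeval T (expand F j g) v) = aeval T g (B v) := by
      rw [aeval_conj T i B hB, ← aeval_pow_expand, hTj]
    rw [← h1]
    simp
  refine ⟨ann_ne_top hBv, fun {x y} hxy => ?_⟩
  rw [key, map_mul] at hxy
  rw [key, key]
  exact hv.mem_or_mem hxy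

/-- The main step: some irreducible polynomial annihilates `T`. -/
theorem exists_irreducible {q : ℕ} (hq : q.Prime) [Nontrivial V] [Module.Finite F V]
    (T : Module.End F V) (hTq : T ^ q = 1)
    (htr : ∀ v w : V, v ≠ 0 → w ≠ 0 → ∃ (i : ℕ) (B : V ≃ₗ[F] V), ¬ q ∣ i ∧ B v = w ∧
      ∀ u, B (T u) = (T ^ i) (B u)) :
    ∃ f : F[X], Irreducible f ∧ aeval T f = 0 := by
  -- the minimal polynomial
  have hint : IsIntegral F T := Algebra.IsIntegral.isIntegral T
  have hm0 : minpoly F T ≠ 0 := minpoly.ne_zero hint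
  have hmu : ¬ IsUnit (minpoly F T) := minpoly.not_isUnit F T
  obtain ⟨f, hf, hfm⟩ := WfDvdMonoid.exists_irreducible_factor hmu hm0
  obtain ⟨g, hg⟩ := hfm
  refine ⟨f, hf, ?_⟩
  -- a vector with annihilator `(f)`
  have hg0 : g ≠ 0 := by rintro rfl; rw [mul_zero] at hg; exact hm0 hg
  have hgT : aeval T g ≠ 0 := by
    intro h
    have h1 : minpoly F T ∣ g := minpoly.dvd F T h
    have h2 := Polynomial.degree_le_of_dvd h1 hg0
    rw [hg, Polynomial.degree_mul] at h2
    have h3 : 0 < f.degree := Polynomial.degree_pos_of_irreducible hf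
    have h4 : g.degree ≠ ⊥ := by rwa [Ne, Polynomial.degree_eq_bot]
    revert h2 h3 h4
    rw [Polynomial.degree_eq_natDegree hf.ne_zero, Polynomial.degree_eq_natDegree hg0]
    intro h2 h3 h4
    norm_cast at h2 h3
    omega
  obtain ⟨u, hu⟩ : ∃ u, aeval T g u ≠ 0 := by
    by_contra hcon
    push Not at hcon
    exact hgT (LinearMap.ext hcon)
  set v := aeval T g u with hv
  have hfv : f ∈ ann T v := by
    rw [mem_ann, hv, ← Module.End.mul_apply, ← map_mul, ← hg, minpoly.aeval]
    rfl
  have hmax : (Ideal.span {f} : Ideal F[X]).IsMaximal :=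
    PrincipalIdealRing.isMaximal_of_irreducible hf
  have hannv : ann T v = Ideal.span {f} := by
    refine (hmax.eq_of_le (ann_ne_top hu) ?_).symm
    rw [Ideal.span_singleton_le_iff_mem]
    exact hfv
  have hvprime : (ann T v).IsPrime := by rw [hannv]; exact hmax.isPrime
  have hprime : ∀ w : V, w ≠ 0 → (ann T w).IsPrime := by
    intro w hw
    obtain ⟨i, B, hi, rfl, hB⟩ := htr v w hu hw
    exact ann_prime hq T hTq i hi B hB v hvprime
  have hmaxl : ∀ w : V, w ≠ 0 → (ann T w).IsMaximal := by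
    intro w hw
    have := hprime w hw
    refine IsPrime.to_maximal_ideal (S := ann T w) ?_
    intro hb
    have h1 : minpoly F T ∈ ann T w := by rw [mem_ann, minpoly.aeval]; rfl
    rw [hb, Ideal.mem_bot] at h1
    exact hm0 h1
  -- all the annihilators are equal
  have hall : ∀ w : V, w ≠ 0 → ann T w = ann T v := by
    intro w hw
    by_contra hne
    have hvw : v + w ≠ 0 := by
      intro h
      apply hne
      have : w = -v := (neg_eq_of_add_eq_zero_right h).symm
      ext g
      rw [mem_ann, mem_ann, this, map_neg, neg_eq_zero]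
    have hp := hprime _ hvw
    have hle : ann T v * ann T w ≤ ann T (v + w) := by
      rw [Ideal.mul_le]
      intro a ha b hb
      rw [mem_ann] at ha hb ⊢
      rw [map_add, map_mul, Module.End.mul_apply, Module.End.mul_apply, hb, map_zero, add_zero,
        ← Module.End.mul_apply, ← map_mul, mul_comm, map_mul, Module.End.mul_apply, ha, map_zero]
    rcases (hp.mul_le).mp hle with h | h
    · -- `ann v = ann (v + w)`
      apply hne
      symm
      refine (hmaxl v hu).eq_of_le (ann_ne_top hw) fun g hg => ?_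
      have h1 := h hg
      rw [mem_ann] at h1 hg ⊢
      rwa [map_add, hg, zero_add] at h1
    · apply hne
      refine (hmaxl w hw).eq_of_le (ann_ne_top hu) fun g hg => ?_
      have h1 := h hg
      rw [mem_ann] at h1 hg ⊢
      rwa [map_add, hg, add_zero] at h1
  refine LinearMap.ext fun w => ?_
  by_cases hw : w = 0
  · rw [hw]; simp
  · have : f ∈ ann T w := by rw [hall w hw]; exact hfv
    exact this

/-- The exponents realized by semilinear operators are powers of `p`. -/
theorem exists_pow {p q : ℕ} [Fact p.Prime] (hq : q.Prime)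
    {V : Type*} [AddCommGroup V] [Module (ZMod p) V]
    (T : Module.End (ZMod p) V) (hTq : T ^ q = 1) (hT1 : T ≠ 1)
    (f : (ZMod p)[X]) (hf : Irreducible f) (hfT : aeval T f = 0)
    (i : ℕ) (B : V ≃ₗ[ZMod p] V) (hB : ∀ u, B (T u) = (T ^ i) (B u)) :
    ∃ j, i ≡ p ^ j [MOD q] := by
  have : Fact (Irreducible f) := ⟨hf⟩
  let L := AdjoinRoot f
  have hfin : Module.Finite (ZMod p) L := (AdjoinRoot.powerBasis hf.ne_zero).finite
  have : Finite L := Module.finite_of_finite (ZMod p)
  set ζ : L := AdjoinRoot.root f with hζ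
  -- a polynomial killing `T` is a multiple of `f`
  have hdvd : ∀ g : (ZMod p)[X], aeval T g = 0 ↔ f ∣ g := by
    intro g
    constructor
    · intro h
      have hint : IsIntegral (ZMod p) T := ⟨_, Polynomial.monic_X_pow_sub_C 1 hq.ne_zero, by
        rw [← aeval_def, map_sub, map_pow, aeval_X, hTq]; simp⟩
      have h1 : minpoly (ZMod p) T ∣ f := minpoly.dvd _ _ hfT
      have h2 : minpoly (ZMod p) T ∣ g := minpoly.dvd _ _ h
      have h3 : ¬ IsUnit (minpoly (ZMod p) T) := by
        intro hu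
        have h4 := minpoly.aeval (ZMod p) T
        have h5 : IsUnit (aeval T (minpoly (ZMod p) T)) := hu.map _
        rw [h4, isUnit_zero_iff] at h5
        apply hT1
        rw [← one_mul T, ← h5, zero_mul, h5]
      exact ((hf.dvd_iff.mp h1).resolve_left h3).dvd.trans h2
    · rintro ⟨c, rfl⟩
      rw [map_mul, hfT, zero_mul]
  have hζd : ∀ g : (ZMod p)[X], aeval ζ g = 0 ↔ f ∣ g := by
    intro g
    rw [hζ, AdjoinRoot.aeval_eq, AdjoinRoot.mk_eq_zero]
  -- `ζ ^ i` is a root of `f`
  have h1 : aeval (T ^ i) f = 0 := by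
    refine LinearMap.ext fun v => ?_
    have h2 := aeval_conj T i B hB f (B.symm v)
    rw [hfT, B.apply_symm_apply] at h2
    rw [← h2]; simp
  have h2 : aeval (ζ ^ i) f = 0 := by
    have h3 : aeval (ζ ^ i) f = aeval ζ (expand (ZMod p) i f) := by rw [expand_aeval]
    rw [h3, hζd, ← hdvd, expand_aeval]
    exact h1
  have hζq : ζ ^ q = 1 := by
    have h3 : aeval ζ (X ^ q - 1 : (ZMod p)[X]) = 0 := by
      rw [hζd, ← hdvd]
      simp [hTq]
    simpa [sub_eq_zero] using h3
  have hζ1 : ζ ≠ 1 := by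
    intro h
    have h3 : aeval ζ (X - 1 : (ZMod p)[X]) = 0 := by simp [h]
    rw [hζd, ← hdvd] at h3
    apply hT1
    simpa [sub_eq_zero] using h3
  have hord : orderOf ζ = q := by
    have : Fact q.Prime := ⟨hq⟩
    exact orderOf_eq_prime hζq hζ1
  -- the automorphism of `L`
  let φ : L →ₐ[ZMod p] L := AdjoinRoot.liftAlgHom f (Algebra.ofId (ZMod p) L) (ζ ^ i) h2
  have hφ : φ ζ = ζ ^ i := AdjoinRoot.liftAlgHom_root ..
  have hφb : Function.Bijective φ := ⟨φ.toRingHom.injective, by
    have : Function.Injective φ := φ.toRingHom.injective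
    exact Finite.surjective_of_injective this⟩
  let ψ : L ≃ₐ[ZMod p] L := AlgEquiv.ofBijective φ hφb
  obtain ⟨j, hj⟩ := (FiniteField.bijective_frobeniusAlgEquivOfAlgebraic_pow (ZMod p) L).2 ψ
  refine ⟨j, ?_⟩
  have h3 : ψ ζ = ζ ^ (p ^ (j : ℕ)) := by
    rw [← hj, AlgEquiv.coe_pow, FiniteField.coe_frobeniusAlgEquivOfAlgebraic_iterate, ZMod.card]
  have h4 : ψ ζ = ζ ^ i := hφ
  rw [h4] at h3
  have hζ0 : ζ ≠ 0 := by
    intro h
    rw [h, zero_pow hq.ne_zero] at hζq
    exact zero_ne_one hζq
  have h5 : (Units.mk0 ζ hζ0) ^ i = (Units.mk0 ζ hζ0) ^ (p ^ (j : ℕ)) := Units.ext (by simpa using h3)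
  have h6 : orderOf (Units.mk0 ζ hζ0) = q := by rw [← orderOf_units, Units.val_mk0, hord]
  rw [← h6]
  exact pow_eq_pow_iff_modEq.mp h5

/-- **The arithmetical conclusion.** -/
theorem orderOf_eq {p q : ℕ} [Fact p.Prime] [hq : Fact q.Prime]
    (hall : ∀ i : ℕ, ¬ q ∣ i → ∃ j, i ≡ p ^ j [MOD q]) (hpq : p ≠ q) :
    orderOf (p : ZMod q) = q - 1 := by
  have hcop : Nat.Coprime p q := (Nat.coprime_primes Fact.out hq.out).mpr hpq
  have h1 : orderOf (ZMod.unitOfCoprime p hcop) = Nat.card (ZMod q)ˣ := by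
    apply orderOf_eq_card_of_forall_mem_zpowers
    intro u
    obtain ⟨j, hj⟩ := hall (u : ZMod q).val (by
      intro h
      have h2 : (u : ZMod q) = 0 := by
        rw [← ZMod.natCast_zmod_val (u : ZMod q)]
        exact (ZMod.natCast_eq_zero_iff _ _).mpr h
      exact u.ne_zero h2)
    rw [Subgroup.mem_zpowers_iff]
    refine ⟨j, Units.ext ?_⟩
    rw [zpow_natCast, Units.val_pow_eq_pow_val, ZMod.coe_unitOfCoprime]
    have h2 : ((p ^ j : ℕ) : ZMod q) = ((u : ZMod q).val : ZMod q) :=
      ((ZMod.natCast_eq_natCast_iff _ _ _).mpr hj).symm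
    rw [ZMod.natCast_zmod_val] at h2
    rw [← h2]; push_cast; rfl
  have h2 : orderOf (p : ZMod q) = orderOf (ZMod.unitOfCoprime p hcop) := by
    rw [← orderOf_units, ZMod.coe_unitOfCoprime]
  rw [h2, h1, Nat.card_eq_fintype_card, ZMod.card_units]

/-- The linear operator of an endomorphism of an elementary abelian group. -/
def toLin (p : ℕ) {N : Type*} [CommGroup N] [Module (ZMod p) (Additive N)] (β : N →* N) :
    Module.End (ZMod p) (Additive N) :=
  (MonoidHom.toAdditive β).toZModLinearMap p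

theorem toLin_apply (p : ℕ) {N : Type*} [CommGroup N] [Module (ZMod p) (Additive N)] (β : N →* N)
    (v : Additive N) : toLin p β v = Additive.ofMul (β v.toMul) := rfl

theorem toLin_pow_apply (p : ℕ) {N : Type*} [CommGroup N] [Module (ZMod p) (Additive N)] (β : MulAut N)
    (k : ℕ) (v : Additive N) :
    ((toLin p β.toMonoidHom) ^ k) v = Additive.ofMul ((β ^ k) v.toMul) := by
  induction k generalizing v with
  | zero => simp
  | succ k ih =>
    rw [pow_succ, Module.End.mul_apply, ih, toLin_apply, pow_succ]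
    rfl

/-- The linear automorphism of an automorphism of an elementary abelian group. -/
noncomputable def toLinE (p : ℕ) {N : Type*} [CommGroup N] [Module (ZMod p) (Additive N)] (β : MulAut N) :
    Additive N ≃ₗ[ZMod p] Additive N :=
  LinearEquiv.ofBijective (toLin p β.toMonoidHom) β.bijective

theorem toLinE_apply (p : ℕ) {N : Type*} [CommGroup N] [Module (ZMod p) (Additive N)] (β : MulAut N)
    (v : Additive N) : toLinE p β v = Additive.ofMul (β v.toMul) := rfl

/-- **`p` is a primitive root modulo `q`.** -/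
theorem primitive_root {N : Type*} [CommGroup N] [Finite N] [Nontrivial N] {p q : ℕ} [Fact p.Prime]
    [hq : Fact q.Prime] (hpq : p ≠ q)
    (hNp : ∀ v : N, v ^ p = 1) (T : MulAut N) (hTq : T ^ q = 1) (hT1 : T ≠ 1)
    (htr : ∀ v w : N, v ≠ 1 → w ≠ 1 → ∃ (i : ℕ) (B : MulAut N), ¬ q ∣ i ∧ B v = w ∧
      ∀ u, B (T u) = (T ^ i) (B u))
    (hall : ∀ i : ℕ, ¬ q ∣ i → ∃ B : MulAut N, ∀ u, B (T u) = (T ^ i) (B u)) :
    orderOf (p : ZMod q) = q - 1 := by
  let mN : Module (ZMod p) (Additive N) := AddCommGroup.zmodModule (n := p) (fun v => hNp v.toMul)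
  have hfin : Module.Finite (ZMod p) (Additive N) := Module.Finite.of_finite
  have hTq' : (toLin p T.toMonoidHom) ^ q = 1 := by
    refine LinearMap.ext fun v => ?_
    rw [toLin_pow_apply, hTq]; rfl
  have hT1' : toLin p T.toMonoidHom ≠ 1 := by
    intro h
    apply hT1
    refine MulEquiv.ext fun v => ?_
    have h1 := toLin_apply p T.toMonoidHom (Additive.ofMul v)
    rw [h] at h1
    exact h1.symm
  have hB : ∀ (i : ℕ) (B : MulAut N), (∀ u, B (T u) = (T ^ i) (B u)) →
      ∀ u, toLinE p B (toLin p T.toMonoidHom u) = ((toLin p T.toMonoidHom) ^ i) (toLinE p B u) := by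
    intro i B hB u
    rw [toLin_apply, toLinE_apply, toLinE_apply, toLin_pow_apply]
    exact congrArg Additive.ofMul (hB u.toMul)
  obtain ⟨f, hf, hfT⟩ := exists_irreducible hq.out (toLin p T.toMonoidHom) hTq' (by
    intro v w hv hw
    obtain ⟨i, B, hi, h1, h2⟩ := htr v.toMul w.toMul hv hw
    exact ⟨i, toLinE p B, hi, congrArg Additive.ofMul h1, hB i B h2⟩)
  refine orderOf_eq (fun i hi => ?_) hpq
  obtain ⟨B, hB'⟩ := hall i hi
  exact exists_pow hq.out (toLin p T.toMonoidHom) hTq' hT1' f hf hfT i (toLinE p B) (hB i B hB')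

end Cfsg.Agent.H513.ThreeOrb
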