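import Cfsg.Agent.S0144
import Cfsg.Agent.S0058
import Cfsg.Agent.H513.ThreeOrbLA
import Cfsg.Prelude.Def_Transfer

/-!
# Groups with three automorphism orbits: the structure (S4081, forward direction)
-/

set_option autoImplicit false

namespace Cfsg.Agent.H513.ThreeOrb

section Orbits

variable {G : Type*} [Group G]

theorem orbit_eq_iff (a b : G) :
    (Quotient.mk'' a : MulAction.orbitRel.Quotient (MulAut G) G) = Quotient.mk'' b ↔
      ∃ α : MulAut G, α b = a := by
  rw [Quotient.eq'', MulAction.orbitRel_apply, MulAction.mem_orbit_iff]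
  rfl

theorem three_orbits (h : Nat.card (MulAction.orbitRel.Quotient (MulAut G) G) = 3) (x₁ x₂ : G)
    (h₁ : x₁ ≠ 1) (h₂ : x₂ ≠ 1) (hne : orderOf x₁ ≠ orderOf x₂) (g : G) :
    g = 1 ∨ (∃ α : MulAut G, α x₁ = g) ∨ (∃ α : MulAut G, α x₂ = g) := by
  classical
  have hfin : Finite (MulAction.orbitRel.Quotient (MulAut G) G) :=
    Nat.finite_of_card_ne_zero (by rw [h]; decide)
  have := Fintype.ofFinite (MulAction.orbitRel.Quotient (MulAut G) G)
  let π : G → MulAction.orbitRel.Quotient (MulAut G) G := Quotient.mk''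
  have h12 : π x₁ ≠ π x₂ := by
    intro hcon
    rw [orbit_eq_iff] at hcon
    obtain ⟨α, hα⟩ := hcon
    apply hne
    rw [← hα]
    exact MulEquiv.orderOf_eq α x₂
  have h01 : ∀ x : G, x ≠ 1 → π 1 ≠ π x := by
    intro x hx hcon
    rw [orbit_eq_iff] at hcon
    obtain ⟨α, hα⟩ := hcon
    apply hx
    exact (MulEquiv.map_eq_one_iff α).mp hα
  have hcard : ({π 1, π x₁, π x₂} : Finset _).card = 3 := by
    rw [Finset.card_insert_of_notMem, Finset.card_insert_of_notMem, Finset.card_singleton]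
    · simpa using h12
    · simp only [Finset.mem_insert, Finset.mem_singleton, not_or]
      exact ⟨h01 _ h₁, h01 _ h₂⟩
  have huniv : ({π 1, π x₁, π x₂} : Finset _) = Finset.univ := by
    rw [← Finset.card_eq_iff_eq_univ, hcard, ← Nat.card_eq_fintype_card, h]
  have hg : π g ∈ ({π 1, π x₁, π x₂} : Finset _) := by rw [huniv]; exact Finset.mem_univ _
  simp only [Finset.mem_insert, Finset.mem_singleton] at hg
  rcases hg with hg | hg | hg
  · left
    by_contra hcon
    exact h01 g hcon hg.symm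
  · right; left
    exact (orbit_eq_iff g x₁).mp hg
  · right; right
    exact (orbit_eq_iff g x₂).mp hg

end Orbits

section Core

variable {G : Type*} [Group G] [Finite G] {p q : ℕ}

/-- The order of a group without elements of order outside `{1, p, q}`. -/
theorem card_eq (h1 : ∀ g : G, g ≠ 1 → orderOf g = p ∨ orderOf g = q) (hpq : p ≠ q) :
    ∃ a b, Nat.card G = p ^ a * q ^ b := by
  have hsub : (Nat.card G).primeFactors ⊆ {p, q} := by
    intro r hr
    have hr' := Nat.prime_of_mem_primeFactors hr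
    have hrd := Nat.dvd_of_mem_primeFactors hr
    have : Fact r.Prime := ⟨hr'⟩
    obtain ⟨x, hx⟩ := exists_prime_orderOf_dvd_card' r hrd
    have hx1 : x ≠ 1 := by
      rintro rfl
      rw [orderOf_one] at hx
      exact hr'.one_lt.ne hx
    have := h1 x hx1
    rw [hx] at this
    simpa using this
  refine ⟨(Nat.card G).factorization p, (Nat.card G).factorization q, ?_⟩
  have h2 := Nat.prod_factorization_pow_eq_self (n := Nat.card G) Nat.card_pos.ne'
  rw [Finsupp.prod_of_support_subset _ hsub _ (by simp)] at h2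
  rw [Finset.prod_pair hpq] at h2
  exact h2.symm

/-- **The structure theorem.** -/
theorem forward_core [hp : Fact p.Prime] [hq : Fact q.Prime] (hpq : p ≠ q)
    (h1 : ∀ g : G, g ≠ 1 → orderOf g = p ∨ orderOf g = q)
    (h2 : ∀ g h : G, orderOf g = p → orderOf h = p → ∃ α : MulAut G, α g = h)
    (h3 : ∀ g h : G, orderOf g = q → orderOf h = q → ∃ α : MulAut G, α g = h)
    (xp : G) (hxp : orderOf xp = p) (xq : G) (hxq : orderOf xq = q)
    (A : Subgroup G) (hAc : A.Characteristic) (hAab : ∀ a ∈ A, ∀ b ∈ A, a * b = b * a) (hxA : xp ∈ A) :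
    ∃ (n : ℕ), 1 ≤ n ∧ Nat.card G = p ^ n * q ∧
      (∀ P : Sylow p G, (P : Subgroup G).Normal ∧ Cfsg.IsElementaryAbelian p (P : Subgroup G)) ∧
      orderOf (p : ZMod q) = q - 1 ∧
      ∀ x y : G, orderOf x = q → orderOf y = p → x * y * x⁻¹ ≠ y := by
  have hpp : p.Prime := hp.out
  have hqq : q.Prime := hq.out
  -- all elements of order `p` lie in `A`
  have hpA : ∀ g : G, g ^ p = 1 → g ∈ A := by
    intro g hg
    by_cases hg1 : g = 1
    · rw [hg1]; exact A.one_mem
    · obtain ⟨α, hα⟩ := h2 xp g hxp (orderOf_eq_prime hg hg1)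
      rw [← hα]
      have := hAc.fixed α
      rw [← this] at hxA
      exact hxA
  -- no elements of order `p q`
  have hfree : ∀ x y : G, orderOf x = q → orderOf y = p → x * y * x⁻¹ ≠ y := by
    intro x y hx hy hcon
    have hc : Commute x y := by
      have : x * y = y * x := by
        calc x * y = x * y * x⁻¹ * x := by group
          _ = y * x := by rw [hcon]
      exact this
    have hcop : Nat.Coprime (orderOf x) (orderOf y) := by
      rw [hx, hy]; exact (Nat.coprime_primes hqq hpp).mpr hpq.symm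
    have ho := hc.orderOf_mul_eq_mul_orderOf_of_coprime hcop
    have hne : x * y ≠ 1 := by
      intro h
      rw [h, orderOf_one, hx, hy] at ho
      have h4 := hqq.one_lt
      have h5 := hpp.one_lt
      nlinarith
    rcases h1 _ hne with h | h
    · rw [ho, hx, hy] at h
      have h4 := hqq.one_lt
      have h5 := hpp.pos
      nlinarith
    · rw [ho, hx, hy] at h
      have h4 := hpp.one_lt
      have h5 := hqq.pos
      nlinarith
  -- the subgroup of elements with `p`-th power one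
  let N : Subgroup G :=
    { carrier := {g | g ^ p = 1}
      one_mem' := one_pow p
      mul_mem' := fun {a b} ha hb => by
        have hc : Commute a b := hAab a (hpA a ha) b (hpA b hb)
        change (a * b) ^ p = 1
        rw [hc.mul_pow]
        rw [show a ^ p = 1 from ha, show b ^ p = 1 from hb, one_mul]
      inv_mem' := fun {a} ha => by
        change a⁻¹ ^ p = 1
        rw [inv_pow, show a ^ p = 1 from ha, inv_one] }
  have hN : ∀ g, g ∈ N ↔ g ^ p = 1 := fun g => Iff.rfl
  have hNn : N.Normal := ⟨fun n hn g => by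
    rw [hN] at hn ⊢
    rw [conj_pow, hn]; group⟩
  have hNp : IsPGroup p N := fun g => ⟨1, Subtype.ext (by rw [pow_one]; exact g.2)⟩
  have hNab : ∀ a ∈ N, ∀ b ∈ N, a * b = b * a := fun a ha b hb => hAab a (hpA a ha) b (hpA b hb)
  have hSyl : ∀ P : Sylow p G, (P : Subgroup G) = N := by
    intro P
    refine le_antisymm ?_ (IsPGroup.le_sylow_of_normal hNp P)
    intro s hs
    rw [hN]
    by_cases hs1 : s = 1
    · rw [hs1, one_pow]
    · rcases h1 s hs1 with h | h
      · rw [← h, pow_orderOf_eq_one]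
      · exfalso
        obtain ⟨k, hk⟩ := P.2 ⟨s, hs⟩
        have hk' : s ^ (p ^ k) = 1 := by simpa using congrArg Subtype.val hk
        have h4 : q ∣ p ^ k := by rw [← h]; exact orderOf_dvd_of_pow_eq_one hk'
        have h5 := hqq.dvd_of_dvd_pow h4
        exact hpq ((Nat.prime_dvd_prime_iff_eq hqq hpp).mp h5).symm
  obtain ⟨P⟩ : Nonempty (Sylow p G) := inferInstance
  obtain ⟨a, b, hab⟩ := card_eq h1 hpq
  -- orders
  have hNcard : Nat.card N = p ^ a := by
    rw [← hSyl P, Sylow.card_eq_multiplicity, hab]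
    congr 1
    rw [Nat.factorization_mul (pow_ne_zero _ hpp.ne_zero) (pow_ne_zero _ hqq.ne_zero),
      hpp.factorization_pow, hqq.factorization_pow]
    simp [hpq.symm]
  have hqd : q ∣ Nat.card G := by rw [← hxq]; exact orderOf_dvd_natCard xq
  have hpd : p ∣ Nat.card G := by rw [← hxp]; exact orderOf_dvd_natCard xp
  have ha1 : 1 ≤ a := by
    rcases Nat.eq_zero_or_pos a with h | h
    · exfalso
      rw [h, pow_zero, one_mul] at hab
      rw [hab] at hpd
      exact hpq ((Nat.prime_dvd_prime_iff_eq hpp hqq).mp (hpp.dvd_of_dvd_pow hpd))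
    · exact h
  have hb1 : 1 ≤ b := by
    rcases Nat.eq_zero_or_pos b with h | h
    · exfalso
      rw [h, pow_zero, mul_one] at hab
      rw [hab] at hqd
      exact hpq ((Nat.prime_dvd_prime_iff_eq hqq hpp).mp (hqq.dvd_of_dvd_pow hqd)).symm
    · exact h
  have hxpN : xp ∈ N := by rw [hN, ← hxp, pow_orderOf_eq_one]
  have hb : b = 1 := by
    by_contra hb
    have hb2 : 2 ≤ b := by omega
    have hd : q ^ 2 ∣ Nat.card G := by
      rw [hab]
      exact (pow_dvd_pow q hb2).trans (dvd_mul_left _ _)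
    obtain ⟨E, hE⟩ := Sylow.exists_subgroup_card_pow_prime q hd
    have hEcomm : IsMulCommutative E := by
      refine ⟨⟨fun x y => ?_⟩⟩
      exact (IsPGroup.isMulCommutative_of_card_eq_prime_sq hE).is_comm.comm x y
    have hEnc : ¬ IsCyclic E := by
      intro hc
      obtain ⟨g, hg⟩ := hc.exists_ofOrder_eq_natCard
      rw [hE, ← Subgroup.orderOf_coe] at hg
      have hg1 : (g : G) ≠ 1 := by
        intro h
        rw [h, orderOf_one] at hg
        have := Nat.one_lt_pow (n := 2) (by norm_num) hqq.one_lt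
        omega
      rcases h1 g hg1 with h | h
      · rw [hg] at h
        have h4 : q ∣ p := by rw [← h]; exact dvd_pow_self q two_ne_zero
        exact hpq ((Nat.prime_dvd_prime_iff_eq hqq hpp).mp h4).symm
      · rw [hg] at h
        have h4 := hqq.one_lt
        nlinarith
    have hcopr : (Nat.card E).Coprime (Nat.card N) := by
      rw [hE, hNcard]
      exact Nat.Coprime.pow _ _ ((Nat.coprime_primes hqq hpp).mpr hpq.symm)
    have h4 := S0058.result E N hEnc (by rw [Subgroup.normalizer_eq_top_iff.mpr hNn]; exact le_top) hcopr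
    have h5 : (⨆ a ∈ {a : G | a ∈ E ∧ a ≠ 1}, N ⊓ Subgroup.centralizer {a}) = ⊥ := by
      rw [eq_bot_iff]
      refine iSup₂_le fun e he y hy => ?_
      rw [Subgroup.mem_bot]
      by_contra hy1
      have hyo : orderOf y = p := orderOf_eq_prime ((hN y).mp hy.1) hy1
      have heo : orderOf e = q := by
        rcases h1 e he.2 with h | h
        · exfalso
          have h6 : orderOf e ∣ q ^ 2 := by
            rw [← hE, ← Subgroup.orderOf_mk e he.1]
            exact orderOf_dvd_natCard _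
          rw [h] at h6
          exact hpq ((Nat.prime_dvd_prime_iff_eq hpp hqq).mp (hpp.dvd_of_dvd_pow h6))
        · exact h
      apply hfree e y heo hyo
      have h6 := (Subgroup.mem_centralizer_iff.mp hy.2) e rfl
      rw [h6]; group
    rw [h5] at h4
    rw [← h4, Subgroup.mem_bot] at hxpN
    rw [hxpN, orderOf_one] at hxp
    exact hpp.one_lt.ne hxp
  subst hb
  rw [pow_one] at hab
  refine ⟨a, ha1, hab, fun P => ?_, ?_, hfree⟩
  · rw [hSyl P]
    exact ⟨hNn, ⟨⟨fun x y => Subtype.ext (hNab x x.2 y y.2)⟩⟩, fun x hx => hx⟩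
  -- the primitive root
  have hidx : N.index = q := by
    have h4 := N.card_mul_index
    rw [hNcard, hab] at h4
    exact Nat.eq_of_mul_eq_mul_left (pow_pos hpp.pos a) h4
  have hxqN : xq ∉ N := by
    intro h
    rw [hN] at h
    have h4 : orderOf xq ∣ p := orderOf_dvd_of_pow_eq_one h
    rw [hxq] at h4
    exact hpq ((Nat.prime_dvd_prime_iff_eq hqq hpp).mp h4).symm
  have hdec : ∀ g : G, ∃ i : ℕ, g * (xq ^ i)⁻¹ ∈ N := by
    intro g
    have hc : Nat.card (G ⧸ N) = q := hidx
    have hne : (xq : G ⧸ N) ≠ 1 := by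
      rw [Ne, QuotientGroup.eq_one_iff]; exact hxqN
    have h4 : (g : G ⧸ N) ∈ Submonoid.powers (xq : G ⧸ N) := mem_powers_of_prime_card hc hne
    obtain ⟨i, hi⟩ := h4
    refine ⟨i, ?_⟩
    rw [← QuotientGroup.eq_one_iff, QuotientGroup.mk_mul, QuotientGroup.mk_inv, QuotientGroup.mk_pow, ← hi]
    exact mul_inv_cancel _
  let cN : CommGroup N := { (inferInstance : Group N) with
    mul_comm := fun x y => Subtype.ext (hNab x x.2 y y.2) }
  have hntN : Nontrivial N := by
    refine ⟨⟨⟨xp, hxpN⟩, 1, ?_⟩⟩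
    intro h
    have h5 : xp = 1 := congrArg Subtype.val h
    rw [h5, orderOf_one] at hxp
    exact hpp.one_lt.ne hxp
  let T : MulAut N := MulAut.conjNormal xq
  have hTk : ∀ (k : ℕ) (v : N), (((T ^ k) v : N) : G) = xq ^ k * v * (xq ^ k)⁻¹ := by
    intro k v
    have h4 : T ^ k = MulAut.conjNormal (xq ^ k) := (map_pow _ _ _).symm
    rw [h4, MulAut.conjNormal_apply]
  have hT : ∀ (v : N), ((T v : N) : G) = xq * v * xq⁻¹ := fun v => MulAut.conjNormal_apply _ _
  have hTq : T ^ q = 1 := by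
    have h5 : xq ^ q = 1 := by rw [← hxq]; exact pow_orderOf_eq_one xq
    have h4 : T ^ q = MulAut.conjNormal (xq ^ q) := (map_pow _ _ _).symm
    rw [h4, h5, map_one]
  have hT1 : T ≠ 1 := by
    intro h
    have h4 := hT ⟨xp, hxpN⟩
    rw [h] at h4
    exact hfree xq xp hxq hxp h4.symm
  -- the operator of an automorphism
  have hαN : ∀ (α : MulAut G) (x : G), x ∈ N → α x ∈ N := by
    intro α x hx
    rw [hN] at hx ⊢
    rw [← map_pow, hx, map_one]
  let B : MulAut G → MulAut N := fun α =>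
    MulEquiv.ofBijective ((α.toMonoidHom.comp N.subtype).codRestrict N (fun x => hαN α x x.2))
      ⟨fun v w hvw => Subtype.ext (α.injective (congrArg Subtype.val hvw)),
       Finite.surjective_of_injective fun v w hvw => Subtype.ext (α.injective (congrArg Subtype.val hvw))⟩
  have hB : ∀ (α : MulAut G) (v : N), ((B α v : N) : G) = α v := fun α v => rfl
  have hBT : ∀ (α : MulAut G) (i : ℕ) (u : G), u ∈ N → α xq = u * xq ^ i →
      ∀ v, B α (T v) = (T ^ i) (B α v) := by
    intro α i u hu hα v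
    apply Subtype.ext
    rw [hB, hT, hTk, hB, map_mul, map_mul, map_inv, hα]
    have h6 : xq ^ i * α (v : G) * (xq ^ i)⁻¹ ∈ N :=
      hNn.conj_mem _ (hαN α _ v.2) _
    have h7 := hNab u hu _ h6
    calc u * xq ^ i * α (v : G) * (u * xq ^ i)⁻¹
        = u * (xq ^ i * α (v : G) * (xq ^ i)⁻¹) * u⁻¹ := by group
      _ = xq ^ i * α (v : G) * (xq ^ i)⁻¹ := by rw [h7]; group
  refine primitive_root (N := N) hpq (fun v => Subtype.ext v.2) T hTq hT1 ?_ ?_
  · intro v w hv hw
    have h4 : ∀ v : N, v ≠ 1 → orderOf (v : G) = p := fun v hv =>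
      orderOf_eq_prime v.2 fun h => hv (Subtype.ext h)
    obtain ⟨α, hα⟩ := h2 _ _ (h4 v hv) (h4 w hw)
    obtain ⟨i, hi⟩ := hdec (α xq)
    refine ⟨i, B α, ?_, ?_, ?_⟩
    · rintro ⟨k, rfl⟩
      have h5 : xq ^ (q * k) = 1 := by
        rw [pow_mul, ← hxq, pow_orderOf_eq_one, one_pow]
      rw [h5, inv_one, mul_one, hN] at hi
      have h6 : orderOf (α xq) ∣ p := orderOf_dvd_of_pow_eq_one hi
      rw [MulEquiv.orderOf_eq, hxq] at h6
      exact hpq ((Nat.prime_dvd_prime_iff_eq hqq hpp).mp h6).symm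
    · exact Subtype.ext hα
    · exact hBT α i _ hi (by group)
  · intro i hi
    have hxi : orderOf (xq ^ i) = q := by
      rw [orderOf_pow, hxq]
      have : Nat.gcd q i = 1 := (Nat.Prime.coprime_iff_not_dvd hqq).mpr hi
      rw [this, Nat.div_one]
    obtain ⟨α, hα⟩ := h3 _ _ hxq hxi
    exact ⟨B α, hBT α i 1 N.one_mem (by rw [hα, one_mul])⟩

/-- **The forward direction.** -/
theorem forward (hnpp : ¬ IsPrimePow (Nat.card G)) (hnt : Nat.card G ≠ 1)
    (h : Nat.card (MulAction.orbitRel.Quotient (MulAut G) G) = 3) :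
    ∃ (p q n : ℕ) (_ : Fact p.Prime) (_ : Fact q.Prime), p ≠ q ∧ 1 ≤ n ∧ Nat.card G = p ^ n * q ∧
      (∀ P : Sylow p G, (P : Subgroup G).Normal ∧ Cfsg.IsElementaryAbelian p (P : Subgroup G)) ∧
      orderOf (p : ZMod q) = q - 1 ∧
      ∀ x y : G, orderOf x = q → orderOf y = p → x * y * x⁻¹ ≠ y := by
  -- two primes
  obtain ⟨p₁, hp₁, hp₁d⟩ := Nat.exists_prime_and_dvd hnt
  obtain ⟨p₂, hp₂, hp₂d, hne⟩ : ∃ p₂, p₂.Prime ∧ p₂ ∣ Nat.card G ∧ p₁ ≠ p₂ := by
    by_contra hcon
    push Not at hcon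
    apply hnpp
    have h1 : (Nat.card G).primeFactors = {p₁} := by
      ext r
      rw [Finset.mem_singleton, Nat.mem_primeFactors]
      constructor
      · rintro ⟨h1, h2, -⟩
        exact (hcon r h1 h2).symm
      · rintro rfl
        exact ⟨hp₁, hp₁d, Nat.card_pos.ne'⟩
    rw [isPrimePow_iff_card_primeFactors_eq_one, h1, Finset.card_singleton]
  have f₁ : Fact p₁.Prime := ⟨hp₁⟩
  have f₂ : Fact p₂.Prime := ⟨hp₂⟩
  obtain ⟨x₁, hx₁⟩ := exists_prime_orderOf_dvd_card' p₁ hp₁d
  obtain ⟨x₂, hx₂⟩ := exists_prime_orderOf_dvd_card' p₂ hp₂d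
  have hx₁1 : x₁ ≠ 1 := by
    rintro rfl; rw [orderOf_one] at hx₁; exact hp₁.one_lt.ne hx₁
  have hx₂1 : x₂ ≠ 1 := by
    rintro rfl; rw [orderOf_one] at hx₂; exact hp₂.one_lt.ne hx₂
  have h3 := three_orbits h x₁ x₂ hx₁1 hx₂1 (by rw [hx₁, hx₂]; exact hne)
  have hord : ∀ g : G, g ≠ 1 → orderOf g = p₁ ∨ orderOf g = p₂ := by
    intro g hg
    rcases h3 g with h | ⟨α, rfl⟩ | ⟨α, rfl⟩
    · exact absurd h hg
    · left; rw [MulEquiv.orderOf_eq, hx₁]
    · right; rw [MulEquiv.orderOf_eq, hx₂]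
  have ht₁ : ∀ g : G, orderOf g = p₁ → ∃ α : MulAut G, α x₁ = g := by
    intro g hg
    rcases h3 g with h | h | ⟨α, rfl⟩
    · rw [h, orderOf_one] at hg; exact absurd hg hp₁.one_lt.ne
    · exact h
    · rw [MulEquiv.orderOf_eq, hx₂] at hg; exact absurd hg.symm hne
  have ht₂ : ∀ g : G, orderOf g = p₂ → ∃ α : MulAut G, α x₂ = g := by
    intro g hg
    rcases h3 g with h | ⟨α, rfl⟩ | h
    · rw [h, orderOf_one] at hg; exact absurd hg hp₂.one_lt.ne
    · rw [MulEquiv.orderOf_eq, hx₁] at hg; exact absurd hg hne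
    · exact h
  have ht : ∀ (p : ℕ) (x : G), (∀ g : G, orderOf g = p → ∃ α : MulAut G, α x = g) →
      ∀ g h : G, orderOf g = p → orderOf h = p → ∃ α : MulAut G, α g = h := by
    intro p x hx g h hg hh
    obtain ⟨α, rfl⟩ := hx g hg
    obtain ⟨β, rfl⟩ := hx h hh
    exact ⟨β * α⁻¹, by simp⟩
  -- solvability
  obtain ⟨a, b, hab⟩ := card_eq hord hne
  have hsol : Group.IsSolvable G := S0144.result p₁ p₂ a b hp₁ hp₂ hab
  -- a characteristic abelian subgroup
  obtain ⟨A, hAc, hAab, hA1⟩ : ∃ A : Subgroup G, A.Characteristic ∧ (∀ a ∈ A, ∀ b ∈ A, a * b = b * a) ∧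
      A ≠ ⊥ := by
    classical
    have hex := hsol.solvable
    set n := Nat.find hex with hn
    have hnbot : derivedSeries G n = ⊥ := Nat.find_spec hex
    have hn0 : n ≠ 0 := by
      intro h0
      rw [h0, derivedSeries_zero] at hnbot
      apply hx₁1
      have : x₁ ∈ (⊥ : Subgroup G) := by rw [← hnbot]; exact Subgroup.mem_top _
      exact Subgroup.mem_bot.mp this
    obtain ⟨m, hm⟩ := Nat.exists_eq_succ_of_ne_zero hn0
    refine ⟨derivedSeries G m, inferInstance, ?_, ?_⟩
    · intro a ha b hb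
      rw [hm, Nat.succ_eq_add_one, derivedSeries_succ, eq_bot_iff, Subgroup.commutator_le] at hnbot
      have h4 := hnbot a ha b hb
      rw [Subgroup.mem_bot] at h4
      exact commutatorElement_eq_one_iff_mul_comm.mp h4
    · exact Nat.find_min hex (by omega)
  obtain ⟨y, hy1⟩ := (Subgroup.ne_bot_iff_exists_ne_one.mp hA1)
  rcases hord y (fun h => hy1 (Subtype.ext h)) with hy | hy
  · obtain ⟨n, h5⟩ := forward_core hne hord (ht p₁ x₁ ht₁) (ht p₂ x₂ ht₂) y hy x₂ hx₂ A hAc hAab y.2
    exact ⟨p₁, p₂, n, f₁, f₂, hne, h5⟩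
  · obtain ⟨n, h5⟩ := forward_core hne.symm (fun g hg => (hord g hg).symm) (ht p₂ x₂ ht₂) (ht p₁ x₁ ht₁)
      y hy x₁ hx₁ A hAc hAab y.2
    exact ⟨p₂, p₁, n, f₂, f₁, hne.symm, h5⟩

end Core

end Cfsg.Agent.H513.ThreeOrb
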