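import Mathlib
import Cfsg.Prelude.Def_Transfer
import Cfsg.Agent.H513.ThreeOrbLA
import Cfsg.Agent.H513.ThreeOrbBwdLA
import Cfsg.Agent.H513.ThreeOrbFwd

/-!
# Groups with three automorphism orbits: the converse (S4081)
-/

set_option autoImplicit false

namespace Cfsg.Agent.H513.ThreeOrb

/-- **The converse, for an elementary abelian group.** -/
theorem backward_mul {p q : ℕ} [hp : Fact p.Prime] [hq : Fact q.Prime] (hpq : p ≠ q)
    (hord : orderOf (p : ZMod q) = q - 1) {N : Type*} [CommGroup N] (hNp : ∀ v : N, v ^ p = 1)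
    (T : MulAut N) (hTq : T ^ q = 1) (hfix : ∀ v, T v = v → v = 1) :
    (∀ v w : N, v ≠ 1 → w ≠ 1 → ∃ e : MulAut N, e v = w ∧ ∀ u, e (T u) = T (e u)) ∧
    (∀ i : ℕ, ¬ q ∣ i → ∃ e : MulAut N, ∀ u, e (T u) = (T ^ i) (e u)) := by
  let mN : Module (ZMod p) (Additive N) := AddCommGroup.zmodModule (n := p) (fun v => hNp v.toMul)
  have hTq' : (toLin p T.toMonoidHom) ^ q = 1 := by
    refine LinearMap.ext fun v => ?_
    rw [toLin_pow_apply, hTq]; rfl
  obtain ⟨h1, h2⟩ := backward_LA hpq hord (toLin p T.toMonoidHom) hTq' (fun v hv =>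
    hfix v.toMul hv)
  constructor
  · intro v w hv hw
    obtain ⟨e, he, he'⟩ := h1 (Additive.ofMul v) (Additive.ofMul w) hv hw
    exact ⟨MulEquiv.toAdditive.symm e, he, fun u => he' (Additive.ofMul u)⟩
  · intro i hi
    obtain ⟨e, he⟩ := h2 i hi
    refine ⟨MulEquiv.toAdditive.symm e, fun u => ?_⟩
    have h3 := he (Additive.ofMul u)
    rw [toLin_pow_apply] at h3
    exact h3

section Group

variable {G : Type*} [Group G] [Finite G]

/-- Extending a pair of compatible automorphisms to a semidirect product. -/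
theorem exists_aut {q : ℕ} [hq : Fact q.Prime] (N : Subgroup G) [N.Normal] (x : G) (hx : orderOf x = q)
    (hc : N.IsComplement' (Subgroup.zpowers x)) (i : ℕ) (hi : ¬ q ∣ i) (e : MulAut N)
    (he : ∀ u : N, e (MulAut.conjNormal x u) = ((MulAut.conjNormal x) ^ i) (e u)) :
    ∃ α : MulAut G, (∀ n : N, α n = e n) ∧ α x = x ^ i := by
  let K := Subgroup.zpowers x
  have hKcard : Nat.card K = q := by rw [Nat.card_zpowers, hx]
  have hcop : (Nat.card K).Coprime i := by
    rw [hKcard]; exact (Nat.Prime.coprime_iff_not_dvd hq.out).mpr hi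
  let fg : K ≃* K :=
    { powCoprime hcop with
      map_mul' := fun a b => (show Commute a b from by
        have : IsMulCommutative K := inferInstance
        exact this.is_comm.comm a b).mul_pow i }
  have hfg : ∀ k : K, fg k = k ^ i := fun k => rfl
  let E := SemidirectProduct.mulEquivSubgroup hc
  have hE : ∀ (n : N) (k : K), E ⟨n, k⟩ = n * k := fun n k => rfl
  let ψ : K →* MulAut N := N.normalizerMonoidHom.comp
      (Subgroup.inclusion (by rw [Subgroup.normalizer_eq_top_iff.mpr ‹N.Normal›]; exact le_top :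
        K ≤ Subgroup.normalizer (N : Set G)))
  have hψ : ∀ (k : K) (n : N), ((ψ k n : N) : G) = k * n * (k : G)⁻¹ := fun k n => rfl
  have he2 : ∀ (m : ℕ) (u : N), e (((MulAut.conjNormal x) ^ m) u) =
      (((MulAut.conjNormal x) ^ i) ^ m) (e u) := by
    intro m
    induction m with
    | zero => intro u; simp
    | succ m ih =>
      intro u
      rw [pow_succ, MulAut.mul_apply, ih, he, pow_succ, MulAut.mul_apply]
  have hcompat : ∀ k : K, (ψ k).trans e = e.trans (ψ (fg k)) := by
    intro k
    obtain ⟨m, hm⟩ : ∃ m : ℕ, x ^ m = (k : G) := by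
      have := (mem_powers_iff_mem_zpowers (x := x)).mpr k.2
      exact this
    refine MulEquiv.ext fun u => ?_
    have h1 : ψ k u = ((MulAut.conjNormal x) ^ m) u := by
      apply Subtype.ext
      rw [hψ, ← map_pow, MulAut.conjNormal_apply, hm]
    have h2 : ψ (fg k) (e u) = (((MulAut.conjNormal x) ^ i) ^ m) (e u) := by
      apply Subtype.ext
      rw [hψ, ← map_pow, ← map_pow, MulAut.conjNormal_apply, hfg, Subgroup.coe_pow, ← hm, ← pow_mul,
        ← pow_mul, mul_comm m i]
    change e (ψ k u) = ψ (fg k) (e u)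
    rw [h1, h2, he2]
  let α : MulAut G := E.symm.trans ((SemidirectProduct.congr e fg hcompat).trans E)
  have hα : ∀ (n : N) (k : K), α (n * k) = e n * ((k ^ i : K) : G) := by
    intro n k
    change E ((SemidirectProduct.congr e fg hcompat) (E.symm (n * k))) = _
    have h1 : E.symm (n * k) = ⟨n, k⟩ := by rw [MulEquiv.symm_apply_eq]; rfl
    rw [h1]
    rfl
  refine ⟨α, fun n => ?_, ?_⟩
  · have := hα n 1
    simpa using this
  · have := hα 1 ⟨x, Subgroup.mem_zpowers x⟩
    simpa using this

/-- **The converse.** -/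
theorem backward {p q n : ℕ} [hp : Fact p.Prime] [hq : Fact q.Prime] (hpq : p ≠ q) (hn : 1 ≤ n)
    (hcard : Nat.card G = p ^ n * q)
    (hS : ∀ P : Sylow p G, (P : Subgroup G).Normal ∧ Cfsg.IsElementaryAbelian p (P : Subgroup G))
    (hord : orderOf (p : ZMod q) = q - 1)
    (hfree : ∀ x y : G, orderOf x = q → orderOf y = p → x * y * x⁻¹ ≠ y) :
    Nat.card (MulAction.orbitRel.Quotient (MulAut G) G) = 3 := by
  classical
  have hpp : p.Prime := hp.out
  have hqq : q.Prime := hq.out
  obtain ⟨P⟩ : Nonempty (Sylow p G) := inferInstance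
  set N : Subgroup G := (P : Subgroup G) with hN
  obtain ⟨hNn, hNab, hNp⟩ := hS P
  have hNcard : Nat.card N = p ^ n := by
    rw [hN, Sylow.card_eq_multiplicity, hcard]
    congr 1
    rw [Nat.factorization_mul (pow_ne_zero _ hpp.ne_zero) hqq.ne_zero,
      hpp.factorization_pow, hqq.factorization]
    simp [hpq.symm]
  have hidx : N.index = q := by
    have h4 := N.card_mul_index
    rw [hNcard, hcard] at h4
    exact Nat.eq_of_mul_eq_mul_left (pow_pos hpp.pos n) h4
  -- elements of order `p` lie in `N`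
  have hpN : ∀ g : G, orderOf g = p → g ∈ N := by
    intro g hg
    have h1 : IsPGroup p (Subgroup.zpowers g) := IsPGroup.of_card (n := 1) (by
      rw [Nat.card_zpowers, hg, pow_one])
    obtain ⟨R, hR⟩ := h1.exists_le_sylow
    have h2 : (P : Subgroup G) ≤ R := IsPGroup.le_sylow_of_normal P.2 R
    have h3 : P = R := by
      have hRn := (hS R).1
      refine (Sylow.ext (le_antisymm h2 ?_))
      exact IsPGroup.le_sylow_of_normal R.2 P
    rw [hN, h3]
    exact hR (Subgroup.mem_zpowers g)
  have hNord : ∀ g ∈ N, g ≠ 1 → orderOf g = p := fun g hg hg1 => orderOf_eq_prime (hNp g hg) hg1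
  -- the other elements have order `q`
  have hqord : ∀ g : G, g ∉ N → orderOf g = q := by
    intro g hg
    have h1 : g ^ q ∈ N := by
      rw [← QuotientGroup.eq_one_iff, QuotientGroup.mk_pow, ← hidx, Subgroup.index]
      exact pow_card_eq_one'
    by_contra hne
    have hgq : g ^ q ≠ 1 := by
      intro h
      apply hne
      refine orderOf_eq_prime h ?_
      rintro rfl
      exact hg N.one_mem
    have h2 : orderOf (g ^ q) = p := hNord _ h1 hgq
    have hqd : q ∣ orderOf g := by
      by_contra hcon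
      have h3 : (orderOf g).Coprime q := ((Nat.Prime.coprime_iff_not_dvd hqq).mpr hcon).symm
      have h4 : orderOf (g ^ q) = orderOf g := h3.orderOf_pow
      rw [h2] at h4
      exact hg (hpN g h4.symm)
    have h3 : orderOf (g ^ q) = orderOf g / q := by
      rw [orderOf_pow, Nat.gcd_eq_right hqd]
    have h4 : orderOf g = p * q := by
      rw [h2] at h3
      rw [h3, Nat.div_mul_cancel hqd]
    have h5 : orderOf (g ^ p) = q := by
      rw [orderOf_pow, h4, Nat.gcd_eq_right (dvd_mul_right p q), Nat.mul_div_cancel_left _ hpp.pos]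
    apply hfree _ _ h5 h2
    group
  -- elements of order `q`
  obtain ⟨x, hx⟩ := exists_prime_orderOf_dvd_card' (G := G) q (by rw [hcard]; exact dvd_mul_left _ _)
  have hxN : x ∉ N := by
    intro h
    have h1 : orderOf x ∣ p := orderOf_dvd_of_pow_eq_one (hNp x h)
    rw [hx] at h1
    exact hpq ((Nat.prime_dvd_prime_iff_eq hqq hpp).mp h1).symm
  obtain ⟨y, hy⟩ := exists_prime_orderOf_dvd_card' (G := G) p (by
    rw [hcard]; exact (dvd_pow_self p (by omega)).trans (dvd_mul_right _ _))
  have hx1 : x ≠ 1 := by rintro rfl; exact hxN N.one_mem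
  have hy1 : y ≠ 1 := by rintro rfl; rw [orderOf_one] at hy; exact hpp.one_lt.ne hy
  have hc : N.IsComplement' (Subgroup.zpowers x) := by
    refine Subgroup.isComplement'_of_coprime ?_ ?_
    · rw [hNcard, Nat.card_zpowers, hx, hcard]
    · rw [hNcard, Nat.card_zpowers, hx]
      exact Nat.Coprime.pow_left _ ((Nat.coprime_primes hpp hqq).mpr hpq)
  -- the action of `x`
  let cN : CommGroup N := { (inferInstance : Group N) with mul_comm := hNab.is_comm.comm }
  have hTq : (MulAut.conjNormal x : MulAut N) ^ q = 1 := by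
    rw [← map_pow, ← hx, pow_orderOf_eq_one, map_one]
  have hfix : ∀ v : N, MulAut.conjNormal x v = v → v = 1 := by
    intro v hv
    by_contra hv1
    have h1 : orderOf (v : G) = p := hNord v v.2 (fun h => hv1 (Subtype.ext h))
    apply hfree x v hx h1
    have h2 := congrArg Subtype.val hv
    rw [MulAut.conjNormal_apply] at h2
    exact h2
  obtain ⟨ha, hb⟩ := backward_mul hpq hord (N := N) (fun v => Subtype.ext (hNp v v.2))
    (MulAut.conjNormal x) hTq hfix
  -- transitivity on elements of order `p`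
  have htp : ∀ g : G, orderOf g = p → ∃ α : MulAut G, α y = g := by
    intro g hg
    have hgN := hpN g hg
    have hyN := hpN y hy
    obtain ⟨e, he1, he2⟩ := ha ⟨y, hyN⟩ ⟨g, hgN⟩ (fun h => hy1 (congrArg Subtype.val h)) (by
      intro h
      have : g = 1 := congrArg Subtype.val h
      rw [this, orderOf_one] at hg
      exact hpp.one_lt.ne hg)
    obtain ⟨α, hα, -⟩ := exists_aut N x hx hc 1 (by
      intro h; exact hqq.one_lt.ne' (Nat.dvd_one.mp h)) e (fun u => by rw [pow_one]; exact he2 u)
    refine ⟨α, ?_⟩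
    have := hα ⟨y, hyN⟩
    rw [he1] at this
    exact this
  -- transitivity on elements of order `q`
  have htq : ∀ g : G, orderOf g = q → ∃ α : MulAut G, α x = g := by
    intro g hg
    have hqcard : Nat.card G = q ^ 1 * p ^ n := by rw [hcard]; ring
    have hsyl : ∀ z : G, orderOf z = q → ∃ R : Sylow q G, (R : Subgroup G) = Subgroup.zpowers z := by
      intro z hz
      have h1 : IsPGroup q (Subgroup.zpowers z) := IsPGroup.of_card (n := 1) (by
        rw [Nat.card_zpowers, hz, pow_one])
      obtain ⟨R, hR⟩ := h1.exists_le_sylow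
      refine ⟨R, (Subgroup.eq_of_le_of_card_ge hR ?_).symm⟩
      rw [Nat.card_zpowers, hz, Sylow.card_eq_multiplicity, hcard,
        Nat.factorization_mul (pow_ne_zero _ hpp.ne_zero) hqq.ne_zero,
        hpp.factorization_pow, hqq.factorization]
      simp [hpq]
    obtain ⟨R, hR⟩ := hsyl x hx
    obtain ⟨R', hR'⟩ := hsyl g hg
    obtain ⟨c, hcR⟩ := MulAction.exists_smul_eq G R R'
    have h1 : g ∈ (R' : Subgroup G) := by rw [hR']; exact Subgroup.mem_zpowers g
    rw [← hcR, Sylow.coe_subgroup_smul, Subgroup.mem_pointwise_smul_iff_inv_smul_mem, hR] at h1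
    have h2 : c⁻¹ * g * c ∈ Subgroup.zpowers x := by
      simpa [MulAut.smul_def, mul_assoc] using h1
    obtain ⟨i, hi⟩ : ∃ i : ℕ, x ^ i = c⁻¹ * g * c := (mem_powers_iff_mem_zpowers (x := x)).mpr h2
    have hiq : ¬ q ∣ i := by
      rintro ⟨k, rfl⟩
      rw [pow_mul, ← hx, pow_orderOf_eq_one, one_pow] at hi
      have h3 : g = 1 := by
        calc g = c * (c⁻¹ * g * c) * c⁻¹ := by group
          _ = 1 := by rw [← hi]; group
      rw [h3, orderOf_one] at hg
      exact hqq.one_lt.ne hg
    obtain ⟨e, he⟩ := hb i hiq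
    obtain ⟨α, -, hα⟩ := exists_aut N x hx hc i hiq e he
    refine ⟨MulAut.conj c * α, ?_⟩
    rw [MulAut.mul_apply, hα, hi, MulAut.conj_apply]
    group
  -- counting the orbits
  let π : G → MulAction.orbitRel.Quotient (MulAut G) G := Quotient.mk''
  have := Fintype.ofFinite (MulAction.orbitRel.Quotient (MulAut G) G)
  have hne1 : ∀ z : G, z ≠ 1 → π 1 ≠ π z := by
    intro z hz hcon
    rw [orbit_eq_iff] at hcon
    obtain ⟨α, hα⟩ := hcon
    exact hz ((MulEquiv.map_eq_one_iff α).mp hα)
  have hxy : π x ≠ π y := by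
    intro hcon
    rw [orbit_eq_iff] at hcon
    obtain ⟨α, hα⟩ := hcon
    have h1 := MulEquiv.orderOf_eq α y
    rw [hα, hx, hy] at h1
    exact hpq h1.symm
  have huniv : (Finset.univ : Finset (MulAction.orbitRel.Quotient (MulAut G) G)) = {π 1, π x, π y} := by
    refine (Finset.eq_univ_iff_forall.mpr fun ω => ?_).symm
    induction ω using Quotient.inductionOn' with
    | h g =>
      simp only [Finset.mem_insert, Finset.mem_singleton]
      by_cases hg1 : g = 1
      · left; rw [hg1]
      · right
        by_cases hgN : g ∈ N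
        · right
          exact (orbit_eq_iff g y).mpr (htp g (hNord g hgN hg1))
        · left
          exact (orbit_eq_iff g x).mpr (htq g (hqord g hgN))
  rw [Nat.card_eq_fintype_card, ← Finset.card_univ, huniv, Finset.card_insert_of_notMem,
    Finset.card_insert_of_notMem, Finset.card_singleton]
  · simpa using hxy
  · simp only [Finset.mem_insert, Finset.mem_singleton, not_or]
    exact ⟨hne1 x hx1, hne1 y hy1⟩

end Group

end Cfsg.Agent.H513.ThreeOrb
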